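import Mathlib.RingTheory.Nilpotent.Basic
import Mathlib.LinearAlgebra.Dual.Lemmas
import Mathlib.LinearAlgebra.FiniteDimensional.Lemmas
import Mathlib.FieldTheory.Finiteness
import Mathlib.Algebra.Field.ZMod
import Mathlib.Algebra.CharP.Lemmas
import Mathlib.GroupTheory.Abelianization.Defs
import Cfsg.Prelude.Def_PLocal
import Cfsg.Agent.H51.Quasisimple

/-! Representation-theoretic preliminaries for the component-normalization theorem. -/

set_option autoImplicit false
set_option linter.style.haveILetI false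

namespace Cfsg.Agent.H34.Comp86

open Subgroup

section perfect

variable {G : Type*} [Group G]

/-- A perfect group has only the trivial homomorphism into a commutative group. -/
theorem hom_comm_trivial [Group.IsPerfect G] {C : Type*} [CommGroup C] (f : G →* C) (g : G) :
    f g = 1 := by
  have h := Abelianization.commutator_subset_ker f
  rw [Group.IsPerfect.commutator_eq_top] at h
  exact h (mem_top g)

/-- A homomorphism on a quasisimple `K` invariant under a nontrivial action of `b` is trivial. -/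
theorem conj_invariant_hom_trivial {M : Type*} [Monoid M] {K : Subgroup G} (hK : IsQuasisimple K)
    {b : G} (hbK : b ∈ normalizer (K : Set G)) (hb : b ∉ centralizer (K : Set G)) (f : K →* M)
    (h : ∀ k : K, f ⟨b * k * b⁻¹, (mem_normalizer_iff.1 hbK k).1 k.2⟩ = f k) (k : K) : f k = 1 := by
  haveI := hK.1
  rcases H51.quasisimple_eq_top_or_le_center_of_normal hK f.ker with h' | h'
  · exact MonoidHom.mem_ker.1 (h' ▸ mem_top k)
  exfalso
  apply hb
  let σ : K → K := fun x => ⟨b * x * b⁻¹, (mem_normalizer_iff.1 hbK x).1 x.2⟩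
  have hc : ∀ x : K, σ x * x⁻¹ ∈ center K := fun x => h' <| by
    rw [MonoidHom.mem_ker, map_mul, h, ← map_mul, mul_inv_cancel, map_one]
  let e : K →* center K := MonoidHom.mk' (fun x => ⟨σ x * x⁻¹, hc x⟩) fun x y => by
    refine Subtype.ext ?_
    have hσ : σ (x * y) = σ x * σ y := Subtype.ext (by simp [σ, mul_assoc])
    change σ (x * y) * (x * y)⁻¹ = σ x * x⁻¹ * (σ y * y⁻¹)
    rw [hσ, mul_assoc (σ x) x⁻¹, mem_center_iff.1 (hc y) x⁻¹]
    simp [mul_assoc]
  letI : CommGroup (center K) :=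
    { (center K).toGroup with mul_comm := fun a b => Subtype.ext (mem_center_iff.1 b.2 a.1) }
  intro x hx
  have h1 : σ ⟨x, hx⟩ * (⟨x, hx⟩ : K)⁻¹ = 1 :=
    congrArg (fun z : center K => (z : K)) (hom_comm_trivial e ⟨x, hx⟩)
  have h2 : b * x * b⁻¹ = x := congrArg Subtype.val (mul_inv_eq_one.1 h1)
  calc x * b = b * x * b⁻¹ * b := by rw [h2]
    _ = b * x := by simp [mul_assoc]

/-- A normal subgroup of a quasisimple `K` containing all `[b, k]` is everything. -/
theorem conj_invariant_normal {K : Subgroup G} (hK : IsQuasisimple K)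
    {b : G} (hbK : b ∈ normalizer (K : Set G)) (hb : b ∉ centralizer (K : Set G))
    (N : Subgroup K) [N.Normal]
    (h : ∀ k : K, (⟨b * k * b⁻¹, (mem_normalizer_iff.1 hbK k).1 k.2⟩ : K) * k⁻¹ ∈ N) : N = ⊤ := by
  refine eq_top_iff.2 fun k _ => (QuotientGroup.eq_one_iff k).1 ?_
  refine conj_invariant_hom_trivial hK hbK hb (QuotientGroup.mk' N) (fun x => ?_) k
  rw [← mul_inv_eq_one, ← map_inv, ← map_mul]
  exact (QuotientGroup.eq_one_iff _).2 (h x)

end perfect

section linear

variable {k : Type*} [CommRing k] {G : Type*} [Group G] {V : Type*} [AddCommGroup V] [Module k V]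
  (ρ : G →* Module.End k V)

/-- Fixed points of a set of group elements. -/
def fixed (B : Subgroup G) : Submodule k V where
  carrier := {v | ∀ b ∈ B, ρ b v = v}
  zero_mem' b _ := map_zero _
  add_mem' hx hy b hb := by rw [map_add, hx b hb, hy b hb]
  smul_mem' c x hx b hb := by rw [map_smul, hx b hb]

theorem mem_fixed {B : Subgroup G} {v : V} : v ∈ fixed ρ B ↔ ∀ b ∈ B, ρ b v = v := Iff.rfl

theorem fixed_mono {X Y : Subgroup G} (h : X ≤ Y) : fixed ρ Y ≤ fixed ρ X :=
  fun _ hv g hg => hv g (h hg)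

/-- The pointwise stabiliser of a submodule. -/
def fixing (W : Submodule k V) : Subgroup G where
  carrier := {g | ∀ w ∈ W, ρ g w = w}
  one_mem' w _ := by simp
  mul_mem' hg hh w hw := by rw [map_mul, Module.End.mul_apply, hh w hw, hg w hw]
  inv_mem' {g} hg w hw := by
    calc ρ g⁻¹ w = ρ g⁻¹ (ρ g w) := by rw [hg w hw]
      _ = w := by rw [← Module.End.mul_apply, ← map_mul, inv_mul_cancel, map_one, Module.End.one_apply]

theorem mem_fixing {W : Submodule k V} {g : G} : g ∈ fixing ρ W ↔ ∀ w ∈ W, ρ g w = w := Iff.rfl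

/-- `[S, A]`. -/
def moved (A : Subgroup G) (S : Set V) : Submodule k V :=
  Submodule.span k {x | ∃ a ∈ A, ∃ u ∈ S, x = ρ a u - u}

theorem sub_mem_moved {A : Subgroup G} {S : Set V} {a : G} {u : V} (ha : a ∈ A) (hu : u ∈ S) :
    ρ a u - u ∈ moved ρ A S :=
  Submodule.subset_span ⟨a, ha, u, hu, rfl⟩

theorem moved_union (A : Subgroup G) (S T : Set V) :
    moved ρ A (S ∪ T) = moved ρ A S ⊔ moved ρ A T := by
  rw [moved, moved, moved, ← Submodule.span_union]
  congr 1
  ext x
  simp only [Set.mem_union, Set.mem_ofPred_eq]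
  grind

theorem moved_empty (A : Subgroup G) : moved ρ A ∅ = ⊥ := by simp [moved]

/-- Conjugation maps `[V, K]` to `[V, K ^ g]`. -/
theorem map_moved {K L : Subgroup G} {g : G} (hgKL : ∀ x ∈ K, g * x * g⁻¹ ∈ L) {v : V}
    (hv : v ∈ moved ρ K Set.univ) : ρ g v ∈ moved ρ L Set.univ := by
  induction hv using Submodule.span_induction with
  | mem x hx =>
    obtain ⟨a, ha, u, -, rfl⟩ := hx
    have h : ρ g (ρ a u) = ρ (g * a * g⁻¹) (ρ g u) := by
      rw [← Module.End.mul_apply, ← Module.End.mul_apply, ← map_mul, ← map_mul]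
      simp [mul_assoc]
    rw [map_sub, h]
    exact sub_mem_moved ρ (hgKL a ha) (Set.mem_univ _)
  | zero => simp
  | add x y _ _ hx hy => rw [map_add]; exact Submodule.add_mem _ hx hy
  | smul c x _ hx => rw [map_smul]; exact Submodule.smul_mem _ _ hx

/-- A subgroup leaves its `[V, K]` invariant. -/
theorem map_moved_self {K : Subgroup G} {g : G} (hg : g ∈ normalizer (K : Set G)) {v : V}
    (hv : v ∈ moved ρ K Set.univ) : ρ g v ∈ moved ρ K Set.univ :=
  map_moved ρ (fun x hx => (mem_normalizer_iff.1 hg x).1 hx) hv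

/-- Stability: a perfect group acting trivially on consecutive layers acts trivially on their union. -/
theorem stab [Group.IsPerfect G] (U V' W : Submodule k V)
    (h1 : ∀ g : G, ∀ u ∈ U, ρ g u - u ∈ V') (h2 : ∀ g : G, ∀ v ∈ V', ρ g v - v ∈ W)
    (g : G) {u : V} (hu : u ∈ U) : ρ g u - u ∈ W := by
  let F : G → (U →ₗ[k] V ⧸ W) := fun g => W.mkQ ∘ₗ (ρ g - 1) ∘ₗ U.subtype
  let f : G →* Multiplicative (U →ₗ[k] V ⧸ W) :=
    MonoidHom.mk' (fun g => Multiplicative.ofAdd (F g)) fun x y => by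
      rw [← ofAdd_add]
      congr 1
      ext u
      simp only [F, LinearMap.comp_apply, LinearMap.add_apply, Submodule.subtype_apply,
        Submodule.mkQ_apply, LinearMap.sub_apply, Module.End.one_apply, map_mul,
        Module.End.mul_apply, ← Submodule.Quotient.mk_add]
      rw [Submodule.Quotient.eq]
      have := h2 x _ (h1 y u u.2)
      rw [map_sub] at this
      convert this using 1
      abel
  have h := congrArg (fun x : Multiplicative (U →ₗ[k] V ⧸ W) => x.toAdd ⟨u, hu⟩) (hom_comm_trivial f g)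
  simpa [f, F, ← Submodule.Quotient.mk_sub, Submodule.Quotient.mk_eq_zero] using h

/-- Commuting nilpotent maps cannot generate an invariant nonzero submodule from itself. -/
theorem eq_bot_of_le_nilpotent_images (s : Finset (Module.End k V)) (W : Submodule k V)
    (hnil : ∀ t ∈ s, IsNilpotent t) (hcomm : ∀ t ∈ s, ∀ t' ∈ s, Commute t t')
    (hinv : ∀ t ∈ s, W.map t ≤ W) (h : W ≤ s.sup fun t => W.map t) : W = ⊥ := by
  classical
  induction s using Finset.induction_on with
  | empty => simpa using h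
  | @insert t s _ ih =>
    simp only [Finset.forall_mem_insert] at hnil hcomm hinv
    rw [Finset.sup_insert] at h
    refine ih hnil.2 (fun a ha b hb => (hcomm.2 a ha).2 b hb) hinv.2 ?_
    set S := s.sup fun t => W.map t with hS
    have hSt : S.map t ≤ S := by
      rw [Submodule.map_le_iff_le_comap, hS, Finset.sup_le_iff]
      intro t' ht'
      rw [← Submodule.map_le_iff_le_comap, ← Submodule.map_comp,
        show t ∘ₗ t' = t' ∘ₗ t from (hcomm.1.2 t' ht').eq, Submodule.map_comp]
      exact (Submodule.map_mono hinv.1).trans (Finset.le_sup (f := fun t => W.map t) ht')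
    have key : ∀ n : ℕ, W ≤ W.map (t ^ n) ⊔ S := by
      intro n
      induction n with
      | zero => exact le_sup_of_le_left (by simp [Module.End.one_eq_id])
      | succ n ihn =>
        refine h.trans (sup_le ((Submodule.map_mono ihn).trans ?_) le_sup_right)
        rw [Submodule.map_sup, ← Submodule.map_comp, pow_succ', Module.End.mul_eq_comp]
        exact sup_le_sup_left hSt _
    obtain ⟨n, hn⟩ := hnil.1
    simpa [hn] using key n

/-- A nonzero invariant submodule meets the kernels of commuting nilpotent maps. -/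
theorem exists_common_kernel (s : Finset (Module.End k V)) (W : Submodule k V) (hW : W ≠ ⊥)
    (hnil : ∀ t ∈ s, IsNilpotent t) (hcomm : ∀ t ∈ s, ∀ t' ∈ s, Commute t t')
    (hinv : ∀ t ∈ s, ∀ v ∈ W, t v ∈ W) : ∃ w ∈ W, w ≠ 0 ∧ ∀ t ∈ s, t w = 0 := by
  classical
  induction s using Finset.induction_on generalizing W with
  | empty =>
    obtain ⟨w, hw, hw0⟩ := Submodule.exists_mem_ne_zero_of_ne_bot hW
    exact ⟨w, hw, hw0, by simp⟩
  | @insert t s _ ih =>
    simp only [Finset.forall_mem_insert] at hnil hcomm hinv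
    obtain ⟨n, hn⟩ := hnil.1
    obtain ⟨v, hv, hv0⟩ := Submodule.exists_mem_ne_zero_of_ne_bot hW
    have hstep : ∀ (n : ℕ) (v : V), v ∈ W → v ≠ 0 → (t ^ n) v = 0 → W ⊓ LinearMap.ker t ≠ ⊥ := by
      intro n
      induction n with
      | zero => intro v _ hv0 hv; simp at hv; exact absurd hv hv0
      | succ n ihn =>
        intro v hv hv0 hvn
        by_cases h : t v = 0
        · intro hbot
          exact hv0 ((Submodule.mem_bot k).1 (hbot ▸ ⟨hv, h⟩))
        · refine ihn (t v) (hinv.1 v hv) h ?_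
          rwa [pow_succ, Module.End.mul_apply] at hvn
    refine Exists.elim (ih (W ⊓ LinearMap.ker t) (hstep n v hv hv0 (by simp [hn]))
      hnil.2 (fun a ha b hb => (hcomm.2 a ha).2 b hb)
      fun t' ht' x hx => ⟨hinv.2 t' ht' x hx.1, by
        change t (t' x) = 0
        rw [← Module.End.mul_apply, (hcomm.1.2 t' ht').eq, Module.End.mul_apply,
          show t x = 0 from hx.2, map_zero]⟩) fun w hw => ?_
    obtain ⟨hw, hw0, hws⟩ := hw
    refine ⟨w, hw.1, hw0, fun t' ht' => ?_⟩
    rcases Finset.mem_insert.1 ht' with rfl | h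
    exacts [hw.2, hws t' h]

/-- The representation on an invariant submodule. -/
def restrictRep (M : Subgroup G) (W : Submodule k V) (h : ∀ g ∈ M, ∀ v ∈ W, ρ g v ∈ W) :
    M →* Module.End k W where
  toFun g := (ρ g).restrict (h g g.2)
  map_one' := by ext v; simp
  map_mul' x y := by ext v; simp

theorem restrictRep_apply (M : Subgroup G) (W : Submodule k V) (h : ∀ g ∈ M, ∀ v ∈ W, ρ g v ∈ W)
    (g : M) (v : W) : ((restrictRep ρ M W h g v : W) : V) = ρ g v := rfl

end linear

section modp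

variable {p : ℕ} [Fact p.Prime] {V : Type*} [AddCommGroup V] [Module (ZMod p) V]

/-- `p = 0` in the endomorphism ring. -/
theorem natCast_end_eq_zero : (p : Module.End (ZMod p) V) = 0 := by
  rw [← map_natCast (algebraMap (ZMod p) (Module.End (ZMod p) V)), ZMod.natCast_self, map_zero]

variable {G : Type*} [Group G] (ρ : G →* Module.End (ZMod p) V)

/-- `ρ a - 1` is nilpotent for a `p`-element `a`. -/
theorem isNilpotent_sub_one {a : G} (ha : a ^ p = 1) : IsNilpotent (ρ a - 1) := by
  refine ⟨p, ?_⟩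
  obtain ⟨y, hy⟩ := (Commute.one_right (ρ a - 1)).exists_add_pow_prime_eq (Fact.out : p.Prime)
  rw [sub_add_cancel, natCast_end_eq_zero, ← map_pow, ha, map_one, one_pow] at hy
  simp only [zero_mul, add_zero] at hy
  exact add_eq_right.1 hy.symm

variable [Finite V]

/-- The product formula for submodules. -/
theorem card_sup_mul_card_inf (X Y : Submodule (ZMod p) V) :
    Nat.card ↥(X ⊔ Y) * Nat.card ↥(X ⊓ Y) = Nat.card X * Nat.card Y := by
  rw [Module.natCard_eq_pow_finrank (K := ZMod p) (V := ↥(X ⊔ Y)),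
    Module.natCard_eq_pow_finrank (K := ZMod p) (V := ↥(X ⊓ Y)),
    Module.natCard_eq_pow_finrank (K := ZMod p) (V := X),
    Module.natCard_eq_pow_finrank (K := ZMod p) (V := Y), ← pow_add, ← pow_add,
    Submodule.finrank_sup_add_finrank_inf_eq]

theorem submodule_card_mono {X Y : Submodule (ZMod p) V} (h : X ≤ Y) :
    Nat.card X ≤ Nat.card Y :=
  Nat.card_le_card_of_injective (Submodule.inclusion h) (Submodule.inclusion_injective h)

theorem submodule_eq_of_card {X Y : Submodule (ZMod p) V} (h : X ≤ Y)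
    (hc : Nat.card Y ≤ Nat.card X) : X = Y :=
  SetLike.coe_injective (Set.eq_of_subset_of_ncard_le h
    (by simpa [← Nat.card_coe_set_eq] using hc))

/-- The offender number. -/
noncomputable def num (B : Subgroup G) : ℕ := Nat.card B * Nat.card (fixed ρ B)

omit [Finite V] in
theorem fixed_sup (X Y : Subgroup G) : fixed ρ X ⊓ fixed ρ Y ≤ fixed ρ (X ⊔ Y) := by
  intro v hv
  have : X ⊔ Y ≤ fixing ρ (Submodule.span (ZMod p) {v}) := by
    rw [sup_le_iff]
    constructor <;> intro g hg w hw <;> rw [Submodule.mem_span_singleton] at hw <;>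
      obtain ⟨c, rfl⟩ := hw
    · rw [map_smul, hv.1 g hg]
    · rw [map_smul, hv.2 g hg]
  exact fun g hg => this hg v (Submodule.mem_span_singleton_self v)

variable [Finite G] {A : Subgroup G}

/-- Maximal subgroups are closed under intersection, with fixed points adding up. -/
theorem num_inf_max (hmax : ∀ B ≤ A, num ρ B ≤ num ρ A) {X Y : Subgroup G}
    (hXA : X ≤ A) (hYA : Y ≤ A) (hX : num ρ A ≤ num ρ X) (hY : num ρ A ≤ num ρ Y) :
    num ρ A ≤ num ρ (X ⊓ Y) ∧ fixed ρ (X ⊓ Y) ≤ fixed ρ X ⊔ fixed ρ Y := by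
  have hle : fixed ρ X ⊔ fixed ρ Y ≤ fixed ρ (X ⊓ Y) :=
    sup_le (fixed_mono ρ inf_le_left) (fixed_mono ρ inf_le_right)
  have h1 : Nat.card X * Nat.card Y ≤ Nat.card ↥(X ⊔ Y) * Nat.card ↥(X ⊓ Y) := by
    have h1 : (X ⊓ Y).relIndex Y ≤ X.relIndex (X ⊔ Y) := by
      rw [inf_relIndex_right]
      exact relIndex_le_of_le_right le_sup_right
        (Subgroup.isFiniteRelIndex_of_finiteIndex (H := X) (K := X ⊔ Y)).relIndex_ne_zero
    have h2 : Nat.card ↥(X ⊓ Y) * (X ⊓ Y).relIndex Y = Nat.card Y := by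
      rw [← relIndex_bot_left, ← relIndex_bot_left,
        relIndex_mul_relIndex _ _ _ bot_le inf_le_right]
    have h3 : Nat.card X * X.relIndex (X ⊔ Y) = Nat.card ↥(X ⊔ Y) := by
      rw [← relIndex_bot_left, ← relIndex_bot_left,
        relIndex_mul_relIndex _ _ _ bot_le le_sup_left]
    rw [← h2, ← h3]
    calc Nat.card X * (Nat.card ↥(X ⊓ Y) * (X ⊓ Y).relIndex Y)
        ≤ Nat.card X * (Nat.card ↥(X ⊓ Y) * X.relIndex (X ⊔ Y)) := by gcongr
      _ = _ := by ring
  have h2 := card_sup_mul_card_inf (fixed ρ X) (fixed ρ Y)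
  have h3 : Nat.card ↥(fixed ρ X ⊓ fixed ρ Y) ≤ Nat.card (fixed ρ (X ⊔ Y)) :=
    submodule_card_mono (fixed_sup ρ X Y)
  have hs := hmax (X ⊔ Y) (sup_le hXA hYA)
  have hpos : 0 < num ρ A := Nat.mul_pos Nat.card_pos Nat.card_pos
  have h4 : num ρ A * num ρ A ≤
      num ρ A * (Nat.card ↥(X ⊓ Y) * Nat.card ↥(fixed ρ X ⊔ fixed ρ Y)) := by
    calc num ρ A * num ρ A ≤ num ρ X * num ρ Y := Nat.mul_le_mul hX hY
      _ = (Nat.card X * Nat.card Y) * (Nat.card (fixed ρ X) * Nat.card (fixed ρ Y)) := by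
          unfold num; ring
      _ ≤ (Nat.card ↥(X ⊔ Y) * Nat.card ↥(X ⊓ Y)) *
          (Nat.card ↥(fixed ρ X ⊔ fixed ρ Y) * Nat.card (fixed ρ (X ⊔ Y))) := by
          rw [← h2]; exact Nat.mul_le_mul h1 (Nat.mul_le_mul_left _ h3)
      _ = num ρ (X ⊔ Y) * (Nat.card ↥(X ⊓ Y) * Nat.card ↥(fixed ρ X ⊔ fixed ρ Y)) := by
          unfold num; ring
      _ ≤ _ := Nat.mul_le_mul_right _ hs
  have h5 := Nat.le_of_mul_le_mul_left h4 hpos
  have h6 : num ρ A ≤ num ρ (X ⊓ Y) :=
    h5.trans (Nat.mul_le_mul_left _ (submodule_card_mono hle))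
  refine ⟨h6, (submodule_eq_of_card hle ?_).ge⟩
  exact Nat.le_of_mul_le_mul_left ((hmax _ (inf_le_left.trans hXA)).trans h5) Nat.card_pos

omit [Finite G] in
/-- One step of Timmesfeld replacement. -/
theorem replacement_step (hab : ∀ a ∈ A, ∀ b ∈ A, Commute a b) (u : V) :
    num ρ A ≤ Nat.card ↥(A ⊓ fixing ρ (moved ρ A {u})) *
        Nat.card ↥(moved ρ A {u} ⊔ fixed ρ A) ∧
      moved ρ A {u} ⊔ fixed ρ A ≤ fixed ρ (A ⊓ fixing ρ (moved ρ A {u})) := by
  refine ⟨?_, sup_le (fun x hx b hb => hb.2 x hx) (fixed_mono ρ inf_le_left)⟩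
  set X := moved ρ A {u}
  set B := A ⊓ fixing ρ X
  let F : ↥A ⧸ B.subgroupOf A → ↥(fixed ρ A) → ↥(X ⊔ fixed ρ A) := fun q f =>
    ⟨(ρ (q.out : G) u - u) + f, Submodule.add_mem_sup
      (sub_mem_moved ρ q.out.2 rfl) f.2⟩
  have hinj : Function.Injective (Function.uncurry F) := by
    rintro ⟨q, f⟩ ⟨q', f'⟩ h
    have h' : ρ (q.out : G) u - u + f = ρ (q'.out : G) u - u + f' := congrArg Subtype.val h
    suffices hq : q = q' by subst hq; simpa using h'
    rw [← q.out_eq', ← q'.out_eq', QuotientGroup.eq, mem_subgroupOf]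
    obtain ⟨a, ha, ea⟩ : ∃ a ∈ A, (q.out : G) = a := ⟨_, q.out.2, rfl⟩
    obtain ⟨b, hb, eb⟩ : ∃ b ∈ A, (q'.out : G) = b := ⟨_, q'.out.2, rfl⟩
    push_cast
    rw [ea, eb] at h' ⊢
    obtain ⟨d, hd, rfl⟩ : ∃ d ∈ A, a * d = b :=
      ⟨a⁻¹ * b, A.mul_mem (A.inv_mem ha) hb, by simp⟩
    rw [inv_mul_cancel_left]
    refine ⟨hd, ?_⟩
    have hfix : ρ d u - u ∈ fixed ρ A := by
      have h1 : ρ a (ρ d u - u) ∈ fixed ρ A := by
        rw [map_sub, ← Module.End.mul_apply, ← map_mul,
          show ρ (a * d) u - ρ a u = (f : V) - f' by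
            rw [sub_eq_sub_iff_add_eq_add]
            have := congrArg (· + u) h'
            simp only [sub_add_eq_add_sub] at this
            rw [add_comm (ρ a u) (f : V)] at this
            linear_combination (norm := abel) -this]
        exact Submodule.sub_mem _ f.2 f'.2
      intro c hc
      have := congrArg (ρ a⁻¹) (h1 c hc)
      rw [← Module.End.mul_apply (ρ c), ← map_mul, ← Module.End.mul_apply, ← map_mul,
        ← Module.End.mul_apply (ρ a⁻¹) (ρ a), ← map_mul,
        (hab c hc a ha).eq, inv_mul_cancel_left, inv_mul_cancel, map_one, Module.End.one_apply] at this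
      exact this
    intro w hw
    induction hw using Submodule.span_induction with
    | mem x hx =>
      obtain ⟨c, hc, v, hv, rfl⟩ := hx
      rw [Set.mem_singleton_iff] at hv
      subst hv
      have h2 := hfix c hc
      rw [map_sub, ← Module.End.mul_apply, ← map_mul, (hab c hc d hd).eq, map_mul,
        Module.End.mul_apply] at h2
      rw [map_sub]
      linear_combination (norm := abel) h2
    | zero => simp
    | add x y _ _ hx hy => rw [map_add, hx, hy]
    | smul c x _ hx => rw [map_smul, hx]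
  have h := Nat.card_le_card_of_injective _ hinj
  rw [Nat.card_prod, ← Subgroup.index_eq_card] at h
  calc num ρ A = Nat.card B * ((B.subgroupOf A).index * Nat.card (fixed ρ A)) := by
        rw [num, ← mul_assoc, ← Subgroup.card_mul_index (B.subgroupOf A),
          Nat.card_congr (subgroupOfEquivOfLe inf_le_left).toEquiv]
    _ ≤ _ := Nat.mul_le_mul_left _ h

/-- Timmesfeld replacement: `A ⊓ C([V, A])` is again best and its fixed points are `[V, A] + C_V(A)`. -/
theorem replacement (hab : ∀ a ∈ A, ∀ b ∈ A, Commute a b) (hmax : ∀ B ≤ A, num ρ B ≤ num ρ A) :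
    num ρ A ≤ num ρ (A ⊓ fixing ρ (moved ρ A Set.univ)) ∧
      fixed ρ (A ⊓ fixing ρ (moved ρ A Set.univ)) ≤ moved ρ A Set.univ ⊔ fixed ρ A := by
  suffices ∀ S : Set V, S.Finite → num ρ A ≤ num ρ (A ⊓ fixing ρ (moved ρ A S)) ∧
      fixed ρ (A ⊓ fixing ρ (moved ρ A S)) ≤ moved ρ A S ⊔ fixed ρ A from this _ (Set.toFinite _)
  intro S hS
  induction S, hS using Set.Finite.induction_on with
  | empty =>
    have : A ⊓ fixing ρ (moved ρ A ∅) = A :=
      inf_eq_left.2 fun g _ w hw => by
        rw [moved_empty, Submodule.mem_bot] at hw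
        rw [hw, map_zero]
    rw [this]
    exact ⟨le_rfl, le_sup_right⟩
  | @insert u S _ _ ih =>
    obtain ⟨hs1, hs2⟩ := replacement_step ρ hab u
    have h1 : num ρ A ≤ num ρ (A ⊓ fixing ρ (moved ρ A {u})) :=
      hs1.trans (Nat.mul_le_mul_left _ (submodule_card_mono hs2))
    have h2 : fixed ρ (A ⊓ fixing ρ (moved ρ A {u})) ≤ moved ρ A {u} ⊔ fixed ρ A :=
      (submodule_eq_of_card hs2 (Nat.le_of_mul_le_mul_left ((hmax _ inf_le_left).trans hs1)
        Nat.card_pos)).ge
    obtain ⟨h3, h4⟩ := num_inf_max ρ hmax inf_le_left inf_le_left h1 ih.1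
    have hB : A ⊓ fixing ρ (moved ρ A (insert u S)) =
        (A ⊓ fixing ρ (moved ρ A {u})) ⊓ (A ⊓ fixing ρ (moved ρ A S)) := by
      rw [Set.insert_eq, moved_union]
      ext g
      constructor
      · intro hg
        exact ⟨⟨hg.1, fun w hw => hg.2 w (Submodule.mem_sup_left hw)⟩,
          hg.1, fun w hw => hg.2 w (Submodule.mem_sup_right hw)⟩
      · rintro ⟨⟨hgA, hg1⟩, -, hg2⟩
        refine ⟨hgA, fun w hw => ?_⟩
        obtain ⟨x, hx, y, hy, rfl⟩ := Submodule.mem_sup.1 hw
        rw [map_add, hg1 x hx, hg2 y hy]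
    rw [hB]
    refine ⟨h3, h4.trans ?_⟩
    rw [Set.insert_eq, moved_union]
    exact sup_le (h2.trans (sup_le_sup_right le_sup_left _))
      (ih.2.trans (sup_le_sup_right le_sup_right _))

/-- The replacement of a faithful elementary abelian best offender is nontrivial. -/
theorem replacement_ne_bot (hρ : Function.Injective ρ) (hA : A ≠ ⊥) (hAel : IsElementaryAbelian p A)
    (hmax : ∀ B ≤ A, num ρ B ≤ num ρ A) : A ⊓ fixing ρ (moved ρ A Set.univ) ≠ ⊥ := by
  classical
  haveI := hAel.1
  intro hbot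
  have hab : ∀ a ∈ A, ∀ b ∈ A, Commute a b := fun a ha b hb => setLike_mul_comm (s := A) ha hb
  have h := (replacement ρ hab hmax).2
  rw [hbot] at h
  haveI := Fintype.ofFinite A
  set s : Finset (Module.End (ZMod p) V) := Finset.univ.image fun a : A => ρ a - 1
  set W := moved ρ A Set.univ
  have hW : W = ⊥ := by
    refine eq_bot_of_le_nilpotent_images s W ?_ ?_ ?_ ?_
    · simp only [s, Finset.mem_image, Finset.mem_univ, true_and]
      rintro _ ⟨a, rfl⟩
      exact isNilpotent_sub_one ρ (hAel.2 a a.2)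
    · simp only [s, Finset.mem_image, Finset.mem_univ, true_and]
      rintro _ ⟨a, rfl⟩ _ ⟨b, rfl⟩
      exact ((((hab a a.2 b b.2).map ρ).sub_right (Commute.one_right _)).sub_left
        ((Commute.one_left _).sub_right (Commute.one_left _)))
    · simp only [s, Finset.mem_image, Finset.mem_univ, true_and]
      rintro _ ⟨a, rfl⟩ _ ⟨v, -, rfl⟩
      exact sub_mem_moved ρ a.2 (Set.mem_univ v)
    · refine Submodule.span_le.2 ?_
      rintro _ ⟨a, ha, u, -, rfl⟩
      obtain ⟨x, hx, y, hy, rfl⟩ := Submodule.mem_sup.1 (h (show u ∈ fixed ρ ⊥ by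
        intro b hb; rw [Subgroup.mem_bot] at hb; simp [hb]))
      rw [map_add, hy a ha, add_sub_add_right_eq_sub]
      have hmem : ρ a - 1 ∈ s := Finset.mem_image.2 ⟨⟨a, ha⟩, Finset.mem_univ _, rfl⟩
      have hle : W.map (ρ a - 1) ≤ s.sup fun t => W.map t :=
        Finset.le_sup (f := fun t => W.map t) hmem
      exact hle ⟨x, hx, rfl⟩
  apply hA
  rw [Subgroup.eq_bot_iff_forall]
  intro a ha
  refine hρ ?_
  rw [map_one]
  ext v
  have hav : ρ a v - v ∈ W := sub_mem_moved ρ ha (Set.mem_univ v)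
  rw [hW, Submodule.mem_bot, sub_eq_zero] at hav
  exact hav

end modp

end Cfsg.Agent.H34.Comp86
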