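import Cfsg.Agent.H34.Comp86.OddCase

/-! Descending to the centraliser of an element of the offender. -/

set_option autoImplicit false
set_option linter.style.haveILetI false

namespace Cfsg.Agent.H34.Comp86

open Subgroup
open Cfsg

universe u v

/-- Best offenders of order less than `n` normalise all components. -/
def Claim (p : ℕ) [Fact p.Prime] (n : ℕ) : Prop :=
  ∀ (G : Type u) [Group G] [Finite G] (V : Type v) [AddCommGroup V] [Finite V] [Module (ZMod p) V]
    (ρ : G →* Module.End (ZMod p) V), Function.Injective ρ → ∀ A : Subgroup G,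
    Nat.card A < n → A ≠ ⊥ → IsElementaryAbelian p A → (∀ B ≤ A, num ρ B ≤ num ρ A) →
    ∀ K : Subgroup G, IsComponent K → A ≤ normalizer (K : Set G)

variable {p : ℕ} [hp : Fact p.Prime] {G : Type u} [Group G] [Finite G] {V : Type v} [AddCommGroup V]
  [Finite V] [Module (ZMod p) V] (ρ : G →* Module.End (ZMod p) V)

omit [Finite G] [Finite V] in
/-- An element of order prime to `p` commuting with a `p`-element `c` and fixing `C_V(c)` is trivial. -/
theorem apply_eq_self_of_coprime {c r : G} (hc : c ^ p = 1) (hcr : Commute c r)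
    (hr : (orderOf r).Coprime p) (hfix : ∀ v, ρ c v = v → ρ r v = v) (v : V) : ρ r v = v := by
  obtain ⟨n, hn⟩ := isNilpotent_sub_one ρ hc
  suffices ∀ (i : ℕ) (v : V), ((ρ c - 1) ^ i) v = 0 → ρ r v = v from this n v (by simp [hn])
  intro i
  induction i with
  | zero => intro v hv; simp at hv; simp [hv]
  | succ i ih =>
    intro v hv
    rw [pow_succ, Module.End.mul_apply] at hv
    have h1 := ih _ hv
    have h2 : ρ c (ρ r v - v) = ρ r v - v := by
      simp only [LinearMap.sub_apply, Module.End.one_apply] at h1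
      rw [map_sub, ← Module.End.mul_apply (ρ r), ← map_mul, ← hcr.eq, map_mul,
        Module.End.mul_apply] at h1
      rw [map_sub]
      linear_combination (norm := abel) h1
    have h3 := hfix _ h2
    have key : ∀ j : ℕ, ρ (r ^ j) v = v + j • (ρ r v - v) := by
      intro j
      induction j with
      | zero => simp
      | succ j ihj =>
        rw [pow_succ', map_mul, Module.End.mul_apply, ihj, map_add, map_nsmul, h3, succ_nsmul']
        abel
    have h4 := key (orderOf r)
    rw [pow_orderOf_eq_one, map_one, Module.End.one_apply, left_eq_add,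
      ← Nat.cast_smul_eq_nsmul (ZMod p), smul_eq_zero] at h4
    rcases h4 with h4 | h4
    · rw [ZMod.natCast_eq_zero_iff] at h4
      exact absurd (Nat.eq_one_of_dvd_coprimes hr h4 dvd_rfl) hp.out.ne_one
    · exact sub_eq_zero.1 h4

omit [Finite G] [Finite V] in
/-- The card of a subgroup is the card of its image times the card of the kernel inside it. -/
theorem card_eq_map_mul {H : Type*} [Group H] (f : G →* H) (X : Subgroup G) :
    Nat.card X = Nat.card (X.map f) * Nat.card ↥(f.ker ⊓ X) := by
  rw [← Subgroup.relIndex_ker, ← inf_relIndex_right, mul_comm, ← relIndex_bot_left,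
    ← relIndex_bot_left, relIndex_mul_relIndex _ _ _ bot_le inf_le_right]

set_option maxHeartbeats 1000000 in
/-- **Descent**: `A` normalises the components of subgroups of `C_G(c)` containing it, `c ∈ A∖1`. -/
theorem descend (hρ : Function.Injective ρ) {A : Subgroup G} (hAel : IsElementaryAbelian p A)
    (hmax : ∀ B ≤ A, num ρ B ≤ num ρ A) (ih : Claim.{u, v} p (Nat.card A)) {c : G} (hcA : c ∈ A)
    (hc1 : c ≠ 1) {H : Subgroup G} (hAH : A ≤ H) (hHc : H ≤ centralizer ({c} : Set G))
    {K₀ : Subgroup G} (hKH : K₀ ≤ H) (hK₀ : IsComponent (K₀.subgroupOf H)) :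
    A ≤ normalizer (K₀ : Set G) := by
  classical
  have hcp : c ^ p = 1 := hAel.2 c hcA
  let U : Submodule (ZMod p) V := fixed ρ (zpowers c)
  have hU : ∀ {v : V}, v ∈ U ↔ ρ c v = v := by
    intro v
    refine ⟨fun h => h c (mem_zpowers c), fun h g hg => ?_⟩
    have : zpowers c ≤ fixing ρ (Submodule.span (ZMod p) {v}) := by
      rw [zpowers_le]
      intro w hw
      obtain ⟨a, rfl⟩ := Submodule.mem_span_singleton.1 hw
      rw [map_smul, h]
    exact this hg v (Submodule.mem_span_singleton_self v)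
  have hHU : ∀ g ∈ H, ∀ v ∈ U, ρ g v ∈ U := by
    intro g hg v hv
    rw [hU] at hv ⊢
    have : c * g = g * c := mem_centralizer_iff.1 (hHc hg) c rfl
    rw [← Module.End.mul_apply, ← map_mul, this, map_mul, Module.End.mul_apply, hv]
  let φ := restrictRep ρ H U hHU
  have hker : ∀ r : H, r ∈ φ.ker → IsPGroup p (zpowers r) ∧ ∀ v ∈ U, ρ (r : G) v = v := by
    intro r hr
    have hrU : ∀ v ∈ U, ρ (r : G) v = v := fun v hv => by
      have := congrArg (fun f : Module.End (ZMod p) U => ((f ⟨v, hv⟩ : U) : V)) (MonoidHom.mem_ker.1 hr)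
      exact this
    refine ⟨?_, hrU⟩
    obtain ⟨e, m, hm, hem⟩ :=
      Nat.exists_eq_pow_mul_and_not_dvd (orderOf_pos r).ne' p hp.out.ne_one
    have hco : (orderOf ((r : G) ^ p ^ e)).Coprime p := by
      rw [orderOf_pow' _ (pow_ne_zero _ hp.out.ne_zero), Subgroup.orderOf_coe, hem,
        Nat.gcd_mul_right_left, Nat.mul_div_cancel_left _ (pow_pos hp.out.pos _)]
      exact (hp.out.coprime_iff_not_dvd.2 hm).symm
    have hr1 : (r : G) ^ p ^ e = 1 := by
      refine hρ (LinearMap.ext fun v => ?_)
      rw [map_one, Module.End.one_apply]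
      refine apply_eq_self_of_coprime ρ hcp ?_ hco (fun w hw => ?_) v
      · exact (show Commute c r from mem_centralizer_iff.1 (hHc r.2) c rfl).pow_right _
      · have hw' : w ∈ U := hU.2 hw
        clear hco
        induction p ^ e with
        | zero => simp
        | succ j ihj => rw [pow_succ, map_mul, Module.End.mul_apply, hrU w hw', ihj]
    refine IsPGroup.iff_card.2 ?_
    rw [Nat.card_zpowers]
    obtain ⟨f, -, hf⟩ := (Nat.dvd_prime_pow hp.out).1
      (orderOf_dvd_of_pow_eq_one (show r ^ p ^ e = 1 from Subtype.ext (by simpa using hr1)))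
    exact ⟨f, hf⟩
  let R := φ.ker
  have hRp : IsPGroup p R := by
    intro r
    obtain ⟨n, hn⟩ := (hker r r.2).1 ⟨r, mem_zpowers _⟩
    refine ⟨n, Subtype.ext ?_⟩
    have := congrArg Subtype.val hn
    simpa only [SubgroupClass.coe_pow, SubmonoidClass.coe_pow, OneMemClass.coe_one] using this
  let π : H →* H ⧸ R := QuotientGroup.mk' R
  let ρ' : H ⧸ R →* Module.End (ZMod p) U := QuotientGroup.lift R φ (fun _ h => h)
  have hρ' : Function.Injective ρ' := by
    intro x y
    induction x using QuotientGroup.induction_on with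
    | _ x => induction y using QuotientGroup.induction_on with
      | _ y =>
        intro h
        have h' : φ x = φ y := h
        rw [QuotientGroup.eq]
        change φ (x⁻¹ * y) = 1
        rw [map_mul, ← h', ← map_mul, inv_mul_cancel, map_one]
  set A₀ := A.subgroupOf H with hA₀
  have hπker : π.ker = R := QuotientGroup.ker_mk' R
  have hfixed : ∀ X : Subgroup H, c ∈ X.map H.subtype →
      Nat.card (fixed ρ (X.map H.subtype)) = Nat.card (fixed ρ' (X.map π)) := by
    intro X hcX
    refine Nat.card_congr (Equiv.ofBijective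
      (fun v => ⟨⟨v.1, hU.2 (v.2 c hcX)⟩, ?_⟩) ⟨?_, ?_⟩)
    · rintro _ ⟨x, hx, rfl⟩
      exact Subtype.ext (v.2 x ⟨x, hx, rfl⟩)
    · intro v w h
      exact Subtype.ext (congrArg (fun z => ((z.1 : U) : V)) h)
    · rintro ⟨⟨v, hv⟩, h⟩
      refine ⟨⟨v, ?_⟩, rfl⟩
      rintro _ ⟨x, hx, rfl⟩
      exact congrArg Subtype.val (h (π x) ⟨x, hx, rfl⟩)
  set cH : H := ⟨c, hAH hcA⟩
  have hcR : cH ∈ R := MonoidHom.mem_ker.2 (LinearMap.ext fun v => Subtype.ext (v.2 c (mem_zpowers c)))
  have hA₀map : A₀.map H.subtype = A := map_subgroupOf_eq_of_le hAH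
  have hcardA : Nat.card A = Nat.card (A₀.map π) * Nat.card ↥(R ⊓ A₀) := by
    have h := card_eq_map_mul π A₀
    rw [hπker, Nat.card_congr (subgroupOfEquivOfLe hAH).toEquiv] at h
    exact h
  have hmax' : ∀ B ≤ A₀.map π, num ρ' B ≤ num ρ' (A₀.map π) := by
    intro B hB
    set X := A₀ ⊓ B.comap π
    have hXB : X.map π = B := by
      refine le_antisymm (map_le_iff_le_comap.2 inf_le_right) fun b hb => ?_
      obtain ⟨a, ha, rfl⟩ := hB hb
      exact ⟨a, ⟨ha, hb⟩, rfl⟩
    have hker' : π.ker ⊓ X = R ⊓ A₀ := by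
      rw [hπker]
      refine le_antisymm (inf_le_inf_left _ inf_le_left) (le_inf inf_le_left (le_inf inf_le_right ?_))
      intro r hr
      rw [mem_comap, show π r = 1 from (QuotientGroup.eq_one_iff r).2 hr.1]
      exact one_mem _
    have hcX : c ∈ X.map H.subtype :=
      ⟨cH, ⟨mem_subgroupOf.2 hcA, (mem_comap (f := π) (K := B)).2 (by
        rw [show π cH = 1 from (QuotientGroup.eq_one_iff cH).2 hcR]
        exact one_mem _)⟩, rfl⟩
    have h := hmax (X.map H.subtype) ((map_mono inf_le_left).trans hA₀map.le)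
    simp only [num] at h ⊢
    rw [card_map_of_injective H.subtype_injective, card_eq_map_mul π X, hker', hXB, hfixed X hcX,
      hXB, hcardA, ← hA₀map, hfixed A₀ (hA₀map ▸ hcA), mul_right_comm,
      mul_right_comm (Nat.card (A₀.map π))] at h
    exact Nat.le_of_mul_le_mul_right h Nat.card_pos
  have hel : IsElementaryAbelian p (A₀.map π) := by
    haveI := hAel.1
    refine ⟨?_, ?_⟩
    · rw [← le_centralizer_iff_isMulCommutative]
      rintro _ ⟨x, hx, rfl⟩ _ ⟨y, hy, rfl⟩
      rw [← map_mul, ← map_mul]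
      exact congrArg π (Subtype.ext (setLike_mul_comm (s := A) hy hx))
    · rintro _ ⟨x, hx, rfl⟩
      rw [← map_pow, show x ^ p = 1 from Subtype.ext (by simpa using hAel.2 _ hx), map_one]
  have hlt : Nat.card (A₀.map π) < Nat.card A := by
    rw [hcardA]
    refine (Nat.lt_mul_iff_one_lt_right Nat.card_pos).2 ((one_lt_card_iff_ne_bot _).2 fun h => hc1 ?_)
    exact congrArg Subtype.val ((Subgroup.eq_bot_iff_forall _).1 h cH ⟨hcR, mem_subgroupOf.2 hcA⟩)
  have hRnorm : R.Normal := MonoidHom.normal_ker φ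
  have hsolv : Group.IsSolvable R := by
    haveI := hRp.isNilpotent
    infer_instance
  -- the translates of `K₀` agree modulo `R`
  have key : ∀ a ∈ A₀, ∀ k ∈ K₀.subgroupOf H, a * k * a⁻¹ ∈ K₀.subgroupOf H ⊔ R := by
    intro a ha k hk
    by_cases htriv : A₀.map π = ⊥
    · have haR : a ∈ R := (QuotientGroup.eq_one_iff a).1 ((Subgroup.eq_bot_iff_forall _).1 htriv _ ⟨a, ha, rfl⟩)
      exact mul_mem (mul_mem (mem_sup_right haR) (mem_sup_left hk)) (inv_mem (mem_sup_right haR))
    have hK' : IsComponent ((K₀.subgroupOf H).map π) := by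
      refine (H51.component_map_of_surjective hK₀ (QuotientGroup.mk'_surjective R)).resolve_left ?_
      intro h
      rw [Subgroup.map_eq_bot_iff, hπker] at h
      exact H51.quasisimple_not_isSolvable hK₀.2
        (Group.isSolvable_of_isSolvable_injective (inclusion_injective h))
    have hn := ih (H ⧸ R) U ρ' hρ' (A₀.map π) hlt htriv hel hmax'
      _ hK' ⟨a, ha, rfl⟩
    have h2 := (mem_normalizer_iff.1 hn (π k)).1 ⟨k, hk, rfl⟩
    rw [← map_inv, ← map_mul, ← map_mul, ← mem_comap, comap_map_eq, hπker] at h2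
    exact h2
  intro a ha
  set aH : H := ⟨a, hAH ha⟩
  set K := K₀.subgroupOf H with hKdef
  have hcomp := H51.component_map_conj hK₀ aH
  rcases H51.component_eq_or_commute hK₀ hcomp with h | h
  · rw [mem_normalizer_iff]
    intro x
    constructor
    · intro hx
      have : aH * ⟨x, hKH hx⟩ * aH⁻¹ ∈ K := h ▸ ⟨⟨x, hKH hx⟩, hx, rfl⟩
      exact this
    · intro hx
      have : (⟨a * x * a⁻¹, hKH hx⟩ : H) ∈ K.map (MulAut.conj aH).toMonoidHom := h ▸ hx
      obtain ⟨y, hy, e⟩ := this
      have e' : a * (y : G) * a⁻¹ = a * x * a⁻¹ := congrArg Subtype.val e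
      rw [← mul_left_cancel (mul_right_cancel e')]
      exact hy
  · exfalso
    refine H51.quasisimple_commutator_ne_bot hcomp.2 (le_bot_iff.1 ?_)
    refine (commutator_mono le_rfl (show _ ≤ K ⊔ R from ?_)).trans
      (H51.commutator_sup_right_eq_bot ?_ ?_).le
    · rintro _ ⟨k, hk, rfl⟩
      exact key aH (mem_subgroupOf.2 ha) k hk
    · rw [commutator_comm, h]
    · exact H51.component_commute_of_solvable hcomp
        (le_top.trans (normalizer_eq_top R).ge) hsolv

end Cfsg.Agent.H34.Comp86
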