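import Mathlib.LinearAlgebra.Matrix.Trace
import Mathlib.Data.Matrix.Basis
import Mathlib.LinearAlgebra.Matrix.ToLinearEquiv
import Mathlib.FieldTheory.Finite.Basic
import Mathlib.GroupTheory.SpecificGroups.Cyclic.Basic
import Mathlib.Algebra.CharP.Two
import Mathlib.Algebra.Algebra.ZMod

/-! Anti-involutions and involutory automorphisms of matrix rings over finite fields of
characteristic two. -/

set_option autoImplicit false
set_option linter.style.haveILetI false
set_option linter.unusedSimpArgs false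

namespace Cfsg.Agent.H34.Comp86

open Matrix

variable {F : Type*} [Field F] [CharP F 2]

section anti

variable {n : ℕ} (τ : Matrix (Fin n) (Fin n) F → Matrix (Fin n) (Fin n) F)
  (hmul : ∀ x y, τ (x * y) = τ y * τ x) (c : Matrix (Fin n) (Fin n) F → F)
  (hc : ∀ z, τ z = z + scalar (Fin n) (c z))

include hmul hc in
/-- The basic identity. -/
theorem anti_identity (z y : Matrix (Fin n) (Fin n) F) (i j : Fin n) :
    (z * y + y * z) i j + (c y * z i j + c z * y i j) =
      if i = j then c (z * y) + c y * c z else 0 := by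
  have h := congrFun (congrFun (hmul z y) i) j
  rw [hc, hc, hc, add_mul, mul_add, mul_add, ← map_mul] at h
  simp only [Matrix.add_apply, scalar_apply, diagonal_mul, mul_diagonal, diagonal_apply] at h
  have h2 : ∀ x : F, x + x = 0 := CharTwo.add_self_eq_zero
  rw [Matrix.add_apply]
  split_ifs with hij <;> simp only [hij, if_true, if_false] at h <;>
    subst_vars
  · linear_combination h + h2 (((y * z) j j) + c y * z j j + c z * y j j) - h2 (c (z * y))
  · linear_combination h + h2 ((y * z) i j + c y * z i j + c z * y i j)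

include hmul hc in
/-- The degree is at most two. -/
theorem anti_le_two : n ≤ 2 := by
  by_contra! hn
  let i : Fin n := ⟨0, by omega⟩
  let j : Fin n := ⟨1, by omega⟩
  let k : Fin n := ⟨2, by omega⟩
  have hik : i ≠ k := by simp [i, k, Fin.ext_iff]
  have hij : i ≠ j := by simp [i, j, Fin.ext_iff]
  have hjk : j ≠ k := by simp [j, k, Fin.ext_iff]
  have h := anti_identity τ hmul c hc (single i j 1) (single j k 1) i k
  simp [Matrix.single_apply, hik, hik.symm, hij, hij.symm, hjk, hjk.symm] at h

end anti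

section two

/-- A two-by-two matrix is a sum of its entries. -/
theorem two_eq_sum (z : Matrix (Fin 2) (Fin 2) F) :
    z = single 0 0 (z 0 0) + single 0 1 (z 0 1) + (single 1 0 (z 1 0) + single 1 1 (z 1 1)) := by
  ext i j
  fin_cases i <;> fin_cases j <;> simp [Matrix.single_apply]

/-- In degree two such an anti-automorphism is the adjugation. -/
theorem anti_two_eq (τ : Matrix (Fin 2) (Fin 2) F → Matrix (Fin 2) (Fin 2) F)
    (hadd : ∀ x y, τ (x + y) = τ x + τ y) (hmul : ∀ x y, τ (x * y) = τ y * τ x)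
    (c : Matrix (Fin 2) (Fin 2) F → F) (hc : ∀ z, τ z = z + scalar (Fin 2) (c z))
    (z : Matrix (Fin 2) (Fin 2) F) : c z = z 0 0 + z 1 1 := by
  have h2 : ∀ x : F, x + x = 0 := CharTwo.add_self_eq_zero
  have hca : ∀ x y, c (x + y) = c x + c y := fun x y => by
    have h := hadd x y
    rw [hc, hc, hc] at h
    have h' := congrFun (congrFun h 0) 0
    simp only [Matrix.add_apply, scalar_apply, diagonal_apply_eq] at h'
    linear_combination h'
  have a10 : ∀ l, c (single 1 0 l : Matrix (Fin 2) (Fin 2) F) = 0 := fun l => by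
    simpa [Matrix.single_apply] using
      anti_identity τ hmul c hc (single 0 1 1) (single 1 0 l) 0 1
  have a01 : ∀ l, c (single 0 1 l : Matrix (Fin 2) (Fin 2) F) = 0 := fun l => by
    simpa [Matrix.single_apply] using
      anti_identity τ hmul c hc (single 1 0 1) (single 0 1 l) 1 0
  have a00 : ∀ l, c (single 0 0 l : Matrix (Fin 2) (Fin 2) F) = l := fun l => by
    have h := anti_identity τ hmul c hc (single 0 1 1) (single 0 0 l) 0 1
    simp [Matrix.single_apply] at h
    linear_combination h - h2 l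
  have a11 : ∀ l, c (single 1 1 l : Matrix (Fin 2) (Fin 2) F) = l := fun l => by
    have h := anti_identity τ hmul c hc (single 0 1 1) (single 1 1 l) 0 1
    simp [Matrix.single_apply] at h
    linear_combination h - h2 l
  conv_lhs => rw [two_eq_sum z]
  simp only [hca, a00, a01, a10, a11]
  ring

omit [CharP F 2] in
/-- Proportional pairs. -/
theorem exists_ratio {b c b' c' : F} (h : b ≠ 0 ∨ c ≠ 0) (he : b * c' = b' * c) :
    ∃ y, b' = y * b ∧ c' = y * c := by
  rcases h with h | h
  · refine ⟨b' / b, by field_simp, ?_⟩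
    field_simp
    linear_combination he
  · refine ⟨c' / c, ?_, by field_simp⟩
    field_simp
    linear_combination -he

/-- A linear involutory automorphism is induced by a trace zero matrix. -/
theorem exists_inner (β : RingAut (Matrix (Fin 2) (Fin 2) F)) (hβ : ∀ z, β (β z) = z)
    (hlin : ∀ l : F, β (scalar (Fin 2) l) = scalar (Fin 2) l) :
    ∃ U : Matrix (Fin 2) (Fin 2) F, U.det ≠ 0 ∧ U 0 0 = U 1 1 ∧ ∀ z, β z * U = U * z := by
  let E : Fin 2 → Fin 2 → Matrix (Fin 2) (Fin 2) F := fun i j => β (single i j 1)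
  have hEE : ∀ i j k, E i j * E j k = E i k := fun i j k => by
    simp only [E, ← map_mul, single_mul_single_same, mul_one]
  have hE0 : E 0 0 ≠ 0 := fun h => by
    have h1 : (single 0 0 1 : Matrix (Fin 2) (Fin 2) F) = 0 := β.injective (h.trans (map_zero β).symm)
    simpa using congrFun (congrFun h1 0) 0
  have hE01 : E 0 0 * E 1 0 = 0 := by
    simp [E, ← map_mul]
  obtain ⟨w, hw⟩ : ∃ w : Fin 2 → F, E 0 0 *ᵥ w ≠ 0 := by
    by_contra! hall
    exact hE0 (Matrix.ext_iff_mulVec.2 fun v => by rw [hall v, zero_mulVec])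
  set v := E 0 0 *ᵥ w with hv
  let cols : Fin 2 → Fin 2 → F := fun j => E j 0 *ᵥ v
  let U : Matrix (Fin 2) (Fin 2) F := Matrix.of fun i j => cols j i
  have hUcol : ∀ j : Fin 2, U *ᵥ Pi.single j 1 = E j 0 *ᵥ v := fun j => by
    rw [mulVec_single_one]; rfl
  have hv0 : E 0 0 *ᵥ v = v := by rw [hv, mulVec_mulVec, hEE]
  have hint : ∀ i j, E i j * U = U * single i j 1 := by
    intro i j
    refine Matrix.ext_of_mulVec_single fun l => ?_
    rw [← mulVec_mulVec, ← mulVec_mulVec, hUcol, mulVec_mulVec]
    by_cases hjl : j = l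
    · subst hjl
      rw [hEE, single_mulVec, Pi.single_eq_same, mul_one]
      exact (hUcol i).symm
    · have : E i j * E l 0 = 0 := by
        simp [E, ← map_mul, single_mul_single_of_ne _ _ _ _ hjl]
      rw [this, zero_mulVec, single_mulVec, Pi.single_eq_of_ne hjl, mul_zero]
      simp
  have hdet : U.det ≠ 0 := by
    intro hdet
    obtain ⟨x, hx, hx0⟩ := Matrix.exists_mulVec_eq_zero_iff.2 hdet
    apply hx
    have hxs : U *ᵥ x = x 0 • (E 0 0 *ᵥ v) + x 1 • (E 1 0 *ᵥ v) := by
      rw [← hUcol, ← hUcol, ← mulVec_smul, ← mulVec_smul, ← mulVec_add]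
      congr 1
      ext i
      fin_cases i <;> simp
    rw [hx0] at hxs
    have h0 : x 0 = 0 := by
      have h := congrArg (E 0 0 *ᵥ ·) hxs
      simp only [mulVec_add, mulVec_smul, mulVec_mulVec, mulVec_zero, hEE, hE01, zero_mulVec,
        smul_zero, add_zero, hv0] at h
      exact (smul_eq_zero.1 h.symm).resolve_right hw
    have h1 : x 1 = 0 := by
      rw [h0, zero_smul, zero_add] at hxs
      have h := congrArg (E 0 1 *ᵥ ·) hxs
      simp only [mulVec_smul, mulVec_mulVec, mulVec_zero, hEE, hv0] at h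
      exact (smul_eq_zero.1 h.symm).resolve_right hw
    ext i
    fin_cases i <;> simp [h0, h1]
  have hall : ∀ z, β z * U = U * z := by
    intro z
    have hs : ∀ i j l, β (single i j l) * U = U * single i j l := by
      intro i j l
      have he : (single i j l : Matrix (Fin 2) (Fin 2) F) = scalar (Fin 2) l * single i j 1 := by
        ext a b
        simp [Matrix.single_apply]
      rw [he, map_mul, hlin, mul_assoc, hint, ← mul_assoc, ← mul_assoc]
      congr 1
      exact scalar_commute l (Commute.all l) U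
    conv_lhs => rw [two_eq_sum z]
    conv_rhs => rw [two_eq_sum z]
    simp only [map_add, add_mul, mul_add, hs]
  refine ⟨U, hdet, ?_, hall⟩
  have hU2 : ∀ z, z * (U * U) = U * U * z := fun z => by
    conv_lhs => rw [← hβ z]
    rw [← mul_assoc, hall, mul_assoc, hall, mul_assoc]
  obtain ⟨r, hr⟩ := (Matrix.mem_range_scalar_iff_commute_single' (M := U * U)).2
    fun i j => hU2 _
  have h00 := congrFun (congrFun hr 0) 0
  have h11 := congrFun (congrFun hr 1) 1
  simp [Matrix.mul_apply, Fin.sum_univ_two] at h00 h11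
  have h2 : ∀ x : F, x + x = 0 := CharTwo.add_self_eq_zero
  have : (U 0 0 + U 1 1) ^ 2 = 0 := by
    linear_combination h11 - h00 + h2 (U 0 0 * U 1 1) + h2 (U 1 1 * U 1 1)
  rw [sq_eq_zero_iff] at this
  linear_combination this - h2 (U 1 1)

/-- Trace-zero matrices fixed by all of a set of automorphisms. -/
def FixedTrace {B : Type*} (θ : B → RingAut (Matrix (Fin 2) (Fin 2) F)) :=
  {z : Matrix (Fin 2) (Fin 2) F // z 0 0 = z 1 1 ∧ ∀ b, θ b z = z}

variable [Finite F] {B : Type*} [CommGroup B] [Finite B]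
  (θ : B →* RingAut (Matrix (Fin 2) (Fin 2) F))

instance (B : Type*) (θ : B → RingAut (Matrix (Fin 2) (Fin 2) F)) : Finite (FixedTrace θ) :=
  Subtype.finite

/-- The linear case of the bound. -/
theorem card_mul_fixed_linear (hinv : ∀ b : B, b * b = 1) (hinj : Function.Injective θ)
    (hlin : ∀ b, ∀ l : F, θ b (scalar (Fin 2) l) = scalar (Fin 2) l) :
    Nat.card B * Nat.card (FixedTrace θ) ≤ Nat.card F ^ 3 ∧
      Nat.card B * Nat.card B * Nat.card (FixedTrace θ) ≤ Nat.card F ^ 4 := by
  have h2 : ∀ x : F, x + x = 0 := CharTwo.add_self_eq_zero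
  set q := Nat.card F
  have hq : 1 < q := Finite.one_lt_card
  by_cases htriv : ∀ b : B, b = 1
  · haveI : Subsingleton B := ⟨fun x y => (htriv x).trans (htriv y).symm⟩
    have hB : Nat.card B = 1 := Nat.card_unique
    have h : Nat.card (FixedTrace θ) ≤ q ^ 3 := by
      have := Nat.card_le_card_of_injective
        (fun z : FixedTrace θ => (z.1 0 0, z.1 0 1, z.1 1 0)) (fun z w h => by
          simp only [Prod.mk.injEq] at h
          refine Subtype.ext (Matrix.ext fun i j => ?_)
          fin_cases i <;> fin_cases j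
          exacts [h.1, h.2.1, h.2.2, z.2.1.symm.trans (h.1.trans w.2.1)])
      simpa [Nat.card_prod, pow_succ, mul_assoc] using this
    rw [hB]
    simp only [one_mul]
    exact ⟨h, h.trans (Nat.pow_le_pow_right hq.le (show 3 ≤ 4 by norm_num))⟩
  push Not at htriv
  obtain ⟨b₀, hb₀⟩ := htriv
  have hθ : ∀ b z, θ b (θ b z) = z := fun b z => by
    rw [← RingAut.mul_apply, ← map_mul, hinv, map_one]; rfl
  choose U hdet hdiag hint using fun b => exists_inner (θ b) (hθ b) (hlin b)
  have hcomm : ∀ b b', U b * U b' = U b' * U b := by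
    intro b b'
    obtain ⟨M₁, hM₁⟩ : ∃ M, M = U b * U b' := ⟨_, rfl⟩
    obtain ⟨M₂, hM₂⟩ : ∃ M, M = U b' * U b := ⟨_, rfl⟩
    rw [← hM₁, ← hM₂]
    have h12 : ∀ z, θ (b * b') z * M₁ = M₁ * z ∧ θ (b * b') z * M₂ = M₂ * z := by
      intro z
      subst hM₁ hM₂
      constructor
      · rw [map_mul, RingAut.mul_apply, ← mul_assoc, hint, mul_assoc, hint, mul_assoc]
      · rw [mul_comm b, map_mul, RingAut.mul_apply, ← mul_assoc, hint, mul_assoc, hint, mul_assoc]
    have hd : M₂.det ≠ 0 := by simp [hM₂, det_mul, hdet]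
    have hu : IsUnit M₂.det := Ne.isUnit hd
    obtain ⟨μ, hμ⟩ := (Matrix.mem_range_scalar_iff_commute_single' (M := M₂⁻¹ * M₁)).2 fun i j => by
      change single i j 1 * (M₂⁻¹ * M₁) = M₂⁻¹ * M₁ * single i j 1
      obtain ⟨e1, e2⟩ := h12 (single i j 1)
      calc single i j 1 * (M₂⁻¹ * M₁) = M₂⁻¹ * (M₂ * single i j 1) * (M₂⁻¹ * M₁) := by
            rw [← mul_assoc M₂⁻¹ M₂, nonsing_inv_mul _ hu, one_mul]
        _ = M₂⁻¹ * (θ (b * b') (single i j 1) * (M₂ * M₂⁻¹) * M₁) := by
            rw [← e2]; simp only [mul_assoc]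
        _ = _ := by rw [mul_nonsing_inv _ hu, mul_one, e1, mul_assoc]
    have hM : M₁ = M₂ * scalar (Fin 2) μ := by
      rw [hμ, ← mul_assoc, mul_nonsing_inv _ hu, one_mul]
    have hμ2 : μ * μ = 1 := by
      have h := congrArg Matrix.det hM
      rw [det_mul M₂, scalar_apply, det_diagonal, Fin.prod_univ_two,
        show M₁.det = M₂.det by simp [hM₁, hM₂, det_mul, mul_comm]] at h
      exact mul_left_cancel₀ hd (by linear_combination -h)
    have hμ1 : μ = 1 := by
      have : (μ + 1) ^ 2 = 0 := by linear_combination hμ2 + h2 μ + h2 1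
      rw [sq_eq_zero_iff] at this
      linear_combination this - h2 1
    rw [hM, hμ1, map_one, mul_one]
  have hprop : ∀ b b', U b 0 1 * U b' 1 0 = U b' 0 1 * U b 1 0 := fun b b' => by
    have h := congrFun (congrFun (hcomm b b') 0) 0
    simp [Matrix.mul_apply, Fin.sum_univ_two] at h
    linear_combination h
  have hne : U b₀ 0 1 ≠ 0 ∨ U b₀ 1 0 ≠ 0 := by
    by_contra! h
    apply hb₀
    refine hinj (RingEquiv.ext fun z => ?_)
    have hs : U b₀ = scalar (Fin 2) (U b₀ 0 0) := by
      ext i j
      fin_cases i <;> fin_cases j <;> simp [h.1, h.2, ← hdiag b₀]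
    have e := hint b₀ z
    rw [map_one]
    change θ b₀ z = z
    have e' : U b₀ * z = z * U b₀ := by
      rw [hs]; exact scalar_commute _ (Commute.all _) z
    rw [e'] at e
    exact (isUnit_iff_isUnit_det _).2 (Ne.isUnit (hdet b₀)) |>.mul_left_injective e
  choose y hy1 hy2 using fun b => exists_ratio hne (hprop b₀ b)
  obtain ⟨s, hs⟩ := FiniteField.isSquare_of_char_two (ringChar.eq F 2)
    (U b₀ 0 1 * U b₀ 1 0)
  have hx : ∀ b, U b 0 0 + y b * s ≠ 0 := by
    intro b h
    apply hdet b
    rw [det_fin_two, hy1 b, hy2 b, ← hdiag b]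
    linear_combination (U b 0 0 - y b * s) * h - y b * y b * hs
  have hcard : Nat.card B ≤ q := by
    refine Nat.card_le_card_of_injective (fun b => y b / (U b 0 0 + y b * s)) fun b b' h => ?_
    obtain ⟨x, hx'⟩ : ∃ x, x = U b 0 0 + y b * s := ⟨_, rfl⟩
    obtain ⟨x', hx''⟩ : ∃ x', x' = U b' 0 0 + y b' * s := ⟨_, rfl⟩
    have hxx : y b * x' = y b' * x := by
      rw [hx', hx'']
      exact (div_eq_div_iff (hx b) (hx b')).1 h
    have hU : U b * scalar (Fin 2) x' = U b' * scalar (Fin 2) x := by
      ext i j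
      rw [scalar_apply, scalar_apply, mul_diagonal, mul_diagonal]
      fin_cases i <;> fin_cases j <;> simp only [Fin.zero_eta, Fin.mk_one, hy1 b, hy1 b', hy2 b,
        hy2 b', ← hdiag b, ← hdiag b'] <;> subst hx' hx''
      · linear_combination -s * hxx
      · linear_combination U b₀ 0 1 * hxx
      · linear_combination U b₀ 1 0 * hxx
      · linear_combination -s * hxx
    refine hinj (RingEquiv.ext fun z => ?_)
    have e1 : θ b z * (U b * scalar (Fin 2) x') = U b * scalar (Fin 2) x' * z := by
      rw [← mul_assoc, hint, mul_assoc, mul_assoc]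
      congr 1
      exact (scalar_commute x' (Commute.all _) z).symm
    have e2 : θ b' z * (U b * scalar (Fin 2) x') = U b * scalar (Fin 2) x' * z := by
      rw [hU, ← mul_assoc, hint, mul_assoc, mul_assoc]
      congr 1
      exact (scalar_commute x (Commute.all _) z).symm
    have hu : IsUnit (U b * scalar (Fin 2) x') := by
      rw [isUnit_iff_isUnit_det, det_mul, scalar_apply, det_diagonal, Fin.prod_univ_two]
      have := hx b'
      subst hx''
      exact Ne.isUnit (by simp [hdet b, this])
    exact hu.mul_left_injective (e1.trans e2.symm)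
  have hfix : Nat.card (FixedTrace θ) ≤ q ^ 2 := by
    have hr : ∀ z : FixedTrace θ, U b₀ 0 1 * z.1 1 0 = z.1 0 1 * U b₀ 1 0 := fun z => by
      have h := hint b₀ z.1
      rw [z.2.2 b₀] at h
      have h' := congrFun (congrFun h 0) 0
      simp [Matrix.mul_apply, Fin.sum_univ_two] at h'
      linear_combination -h'
    choose w hw1 hw2 using fun z => exists_ratio hne (hr z)
    have := Nat.card_le_card_of_injective (fun z => (z.1 0 0, w z)) (fun z z' h => by
      simp only [Prod.mk.injEq] at h
      refine Subtype.ext (Matrix.ext fun i j => ?_)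
      fin_cases i <;> fin_cases j
      · exact h.1
      · simp [hw1, h.2]
      · simp [hw2, h.2]
      · exact z.2.1.symm.trans (h.1.trans z'.2.1))
    simpa [Nat.card_prod, sq] using this
  constructor
  · calc Nat.card B * Nat.card (FixedTrace θ) ≤ q * q ^ 2 := Nat.mul_le_mul hcard hfix
      _ = q ^ 3 := by ring
  · calc Nat.card B * Nat.card B * Nat.card (FixedTrace θ) ≤ q * q * q ^ 2 :=
          Nat.mul_le_mul (Nat.mul_le_mul hcard hcard) hfix
      _ = q ^ 4 := by ring

/-- The order of an elementary abelian group of automorphisms times the order of its fixed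
trace-zero space is at most `q ^ 3`. -/
theorem card_mul_fixed_le (hinv : ∀ b : B, b * b = 1) (hinj : Function.Injective θ)
    (htr : ∀ b z, z 0 0 = z 1 1 → θ b z 0 0 = θ b z 1 1) :
    Nat.card B * Nat.card (FixedTrace θ) ≤ Nat.card F ^ 3 := by
  set q := Nat.card F
  have hq : 1 < q := Finite.one_lt_card
  have hscal : ∀ b l, ∃ l', θ b (scalar (Fin 2) l) = scalar (Fin 2) l' := fun b l => by
    obtain ⟨l', hl'⟩ := (Matrix.mem_range_scalar_iff_commute_single'
      (M := θ b (scalar (Fin 2) l))).2 fun i j => by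
        change _ * _ = _ * _
        conv_lhs => rw [← (θ b).apply_symm_apply (single i j 1)]
        conv_rhs => rw [← (θ b).apply_symm_apply (single i j 1)]
        rw [← map_mul, ← map_mul]
        exact congrArg _ (scalar_commute l (Commute.all _) _).symm
    exact ⟨l', hl'.symm⟩
  let L : Subgroup B :=
    { carrier := {b | ∀ l : F, θ b (scalar (Fin 2) l) = scalar (Fin 2) l}
      one_mem' := fun l => by rw [map_one]; rfl
      mul_mem' := fun hx hy l => by rw [map_mul, RingAut.mul_apply, hy, hx]
      inv_mem' := fun {x} hx l => by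
        rw [inv_eq_of_mul_eq_one_right (hinv x)]; exact hx l }
  let θL : L →* RingAut (Matrix (Fin 2) (Fin 2) F) := θ.comp L.subtype
  obtain ⟨hL1, hL2⟩ := card_mul_fixed_linear θL (fun b => Subtype.ext (hinv b))
    (hinj.comp L.subtype_injective) (fun b => b.2)
  by_cases hall : ∀ b, b ∈ L
  · refine le_trans (Nat.mul_le_mul ?_ ?_) hL1
    · exact Nat.card_le_card_of_injective (fun b => (⟨b, hall b⟩ : L)) fun a b h =>
        congrArg Subtype.val h
    · exact Nat.card_le_card_of_injective (fun z => (⟨z.1, z.2.1, fun b => z.2.2 b⟩ : FixedTrace θL))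
        fun a b h => Subtype.ext (congrArg (fun x : FixedTrace θL => x.1) h)
  push Not at hall
  obtain ⟨δ, hδ⟩ := hall
  choose σ hσ using hscal
  have hscinj : ∀ {l l' : F}, scalar (Fin 2) l = scalar (Fin 2) l' → l = l' := fun h => by
    simpa using congrFun (congrFun h 0) 0
  have hσadd : ∀ b l l', σ b (l + l') = σ b l + σ b l' := fun b l l' => hscinj <| by
    rw [← hσ, map_add, map_add, hσ, hσ, map_add]
  have hσmul : ∀ b l l', σ b (l * l') = σ b l * σ b l' := fun b l l' => hscinj <| by
    rw [← hσ, map_mul, map_mul, hσ, hσ, map_mul]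
  have hσinv : ∀ b l, σ b (σ b l) = l := fun b l => hscinj <| by
    rw [← hσ, ← hσ, ← RingAut.mul_apply, ← map_mul, hinv, map_one]; rfl
  letI : Algebra (ZMod 2) F := _root_.ZMod.algebra F 2
  let e : B → (F ≃+* F) := fun b =>
    RingEquiv.mk ⟨σ b, σ b, hσinv b, hσinv b⟩ (hσmul b) (hσadd b)
  let γ : B → (F ≃ₐ[ZMod 2] F) := fun b => AlgEquiv.ofRingEquiv (f := e b) fun x =>
    DFunLike.congr_fun (RingHom.ext_zmod
      ((e b).toRingHom.comp (algebraMap (ZMod 2) F)) (algebraMap (ZMod 2) F)) x
  have hidx : L.index ≤ 2 := by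
    classical
    haveI : Finite (F ≃ₐ[ZMod 2] F) := Finite.of_injective _ DFunLike.coe_injective
    haveI := Fintype.ofFinite (F ≃ₐ[ZMod 2] F)
    rw [Subgroup.index_eq_card]
    let g : B ⧸ L → {x : F ≃ₐ[ZMod 2] F // x ^ 2 = 1} := fun x => ⟨γ x.out, AlgEquiv.ext fun l => by
      rw [pow_two]; exact hσinv _ l⟩
    have hg : Function.Injective g := by
      intro x x' h
      rw [← x.out_eq', ← x'.out_eq', QuotientGroup.eq]
      intro l
      have e : σ x'.out l = σ x.out l :=
        (congrArg (fun e : {x : F ≃ₐ[ZMod 2] F // x ^ 2 = 1} => e.1 l) h).symm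
      rw [inv_eq_of_mul_eq_one_right (hinv x.out), map_mul, RingAut.mul_apply, hσ, hσ, e, hσinv]
    refine (Nat.card_le_card_of_injective g hg).trans ?_
    rw [Nat.card_eq_fintype_card, Fintype.card_subtype]
    exact IsCyclic.card_pow_eq_one_le (by norm_num)
  obtain ⟨l, hl⟩ : ∃ l, σ δ l ≠ l := by
    by_contra! h
    exact hδ fun l => by rw [hσ, h]
  have hsq : Nat.card (FixedTrace θ) * Nat.card (FixedTrace θ) ≤ Nat.card (FixedTrace θL) := by
    rw [← Nat.card_prod]
    refine Nat.card_le_card_of_injective (fun zz => (⟨zz.1.1 + scalar (Fin 2) l * zz.2.1, ?_, ?_⟩ :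
      FixedTrace θL)) ?_
    · rw [scalar_apply, Matrix.add_apply, Matrix.add_apply, diagonal_mul, diagonal_mul, zz.1.2.1,
        zz.2.2.1]
    · intro b
      change θ b (_ + _) = _
      rw [map_add, map_mul, b.2 l, zz.1.2.2, zz.2.2.2]
    · rintro ⟨x, y⟩ ⟨x', y'⟩ h
      have h' : x.1 + scalar (Fin 2) l * y.1 = x'.1 + scalar (Fin 2) l * y'.1 :=
        congrArg (fun z : FixedTrace θL => z.1) h
      have h'' := congrArg (θ δ) h'
      rw [map_add, map_add, map_mul, map_mul, hσ, x.2.2, y.2.2, x'.2.2, y'.2.2] at h''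
      have he : ∀ i j, (σ δ l - l) * (y.1 i j - y'.1 i j) = 0 := fun i j => by
        have a1 := congrFun (congrFun h' i) j
        have a2 := congrFun (congrFun h'' i) j
        simp only [scalar_apply, Matrix.add_apply, diagonal_mul] at a1 a2
        linear_combination a2 - a1
      have hy : y.1 = y'.1 := Matrix.ext fun i j =>
        sub_eq_zero.1 ((mul_eq_zero.1 (he i j)).resolve_left (sub_ne_zero.2 hl))
      rw [hy, add_left_inj] at h'
      exact Prod.ext (Subtype.ext h') (Subtype.ext hy)
  have hBL : Nat.card B ≤ 2 * Nat.card L := by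
    rw [← L.card_mul_index, mul_comm]
    exact Nat.mul_le_mul_right _ hidx
  refine Nat.mul_self_le_mul_self_iff.1 ?_
  calc Nat.card B * Nat.card (FixedTrace θ) * (Nat.card B * Nat.card (FixedTrace θ))
      = Nat.card B * Nat.card B * (Nat.card (FixedTrace θ) * Nat.card (FixedTrace θ)) := by ring
    _ ≤ 2 * Nat.card L * (2 * Nat.card L) * Nat.card (FixedTrace θL) :=
        Nat.mul_le_mul (Nat.mul_le_mul hBL hBL) hsq
    _ = 4 * (Nat.card L * Nat.card L * Nat.card (FixedTrace θL)) := by ring
    _ ≤ 4 * q ^ 4 := Nat.mul_le_mul_left _ hL2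
    _ ≤ q ^ 2 * q ^ 4 := Nat.mul_le_mul_right _ (Nat.pow_le_pow_left hq 2)
    _ = q ^ 3 * q ^ 3 := by ring

end two

end Cfsg.Agent.H34.Comp86
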