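import Mathlib.Tactic.NoncommRing
import Mathlib.RingTheory.SimpleModule.WedderburnArtin
import Mathlib.RingTheory.LittleWedderburn
import Mathlib.RingTheory.Artinian.Module
import Mathlib.RingTheory.Jacobson.Semiprimary
import Cfsg.Agent.H25.Burnside
import Cfsg.Agent.H34.Comp86.Basic

/-! Exponent twelve, transvections, and a simple matrix quotient. -/

set_option autoImplicit false
set_option linter.style.haveILetI false

namespace Cfsg.Agent.H34.Comp86

open Subgroup

universe u v

/-- A perfect finite group has no nontrivial image of exponent dividing twelve. -/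
theorem hom_trivial_of_pow_twelve {K : Type u} [Group K] [Finite K] [Group.IsPerfect K]
    {M : Type v} [Monoid M] (f : K →* M) (h : ∀ k, f k ^ 12 = 1) (k : K) : f k = 1 := by
  let Q := K ⧸ f.ker
  have hexp : ∀ x : Q, x ^ 12 = 1 := by
    intro x
    induction x using QuotientGroup.induction_on with
    | _ y => rw [← QuotientGroup.mk_pow, QuotientGroup.eq_one_iff, MonoidHom.mem_ker, map_pow, h]
  have hprimes : ∀ r : ℕ, r.Prime → r ∣ Nat.card Q → r = 2 ∨ r = 3 := by
    intro r hr hdvd
    haveI := Fact.mk hr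
    obtain ⟨x, hx⟩ := exists_prime_orderOf_dvd_card' r hdvd
    have h12 : r ∣ 2 ^ 2 * 3 := hx ▸ orderOf_dvd_of_pow_eq_one (hexp x)
    rcases (Nat.Prime.dvd_mul hr).1 h12 with h | h
    · exact Or.inl ((Nat.prime_dvd_prime_iff_eq hr Nat.prime_two).1 (hr.dvd_of_dvd_pow h))
    · exact Or.inr ((Nat.prime_dvd_prime_iff_eq hr Nat.prime_three).1 h)
  have hcard : ∀ n : ℕ, n ≠ 0 → (∀ r : ℕ, r.Prime → r ∣ n → r = 2 ∨ r = 3) →
      ∃ a b, n = 2 ^ a * 3 ^ b := by
    intro n
    induction n using Nat.strong_induction_on with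
    | _ n ih =>
      intro hn hp
      by_cases h1 : n = 1
      · exact ⟨0, 0, by simp [h1]⟩
      obtain ⟨r, hr, hrn⟩ := Nat.exists_prime_and_dvd h1
      obtain ⟨m, rfl⟩ := hrn
      have hm : m ≠ 0 := fun h => hn (by simp [h])
      obtain ⟨a, b, rfl⟩ := ih m (lt_mul_of_one_lt_left (Nat.pos_of_ne_zero hm) hr.one_lt) hm
        fun s hs hsm => hp s hs (dvd_mul_of_dvd_right hsm r)
      rcases hp r hr (dvd_mul_right r _) with rfl | rfl
      · exact ⟨a + 1, b, by ring⟩
      · exact ⟨a, b + 1, by ring⟩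
  obtain ⟨a, b, hab⟩ := hcard _ (Nat.card_pos (α := Q)).ne' hprimes
  haveI : Group.IsSolvable Q :=
    Cfsg.Agent.H25.isSolvable_of_card_eq_mul_pow Nat.prime_two Nat.prime_three hab
  haveI : Group.IsPerfect Q := Group.IsPerfect.ofSurjective (QuotientGroup.mk'_surjective f.ker)
  rcases subsingleton_or_nontrivial Q with hs | hn
  · exact MonoidHom.mem_ker.1 ((QuotientGroup.eq_one_iff k).1 (Subsingleton.elim _ _))
  · exact absurd (inferInstance : Group.IsSolvable Q) (Group.IsPerfect.not_isSolvable Q)

/-- The product of two transvections in characteristic two has order dividing twelve. -/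
theorem transvection_mul_pow_twelve {R : Type*} [Ring R] {V : Type*} [AddCommGroup V] [Module R V]
    (h2 : ∀ v : V, v + v = 0) {s u : Module.End R V} (hs : s * s = 0) (hu : u * u = 0)
    (hs' : ∀ v w, s v ≠ 0 → s w ≠ 0 → s v = s w) (hu' : ∀ v w, u v ≠ 0 → u w ≠ 0 → u v = u w) :
    ((1 + s) * (1 + u)) ^ 12 = 1 := by
  have two : ∀ X : Module.End R V, X + X = 0 := fun X => LinearMap.ext fun v => h2 (X v)
  have dich : ∀ {s u : Module.End R V}, (∀ v w, s v ≠ 0 → s w ≠ 0 → s v = s w) →
      s * u * s = s ∨ s * u * s = 0 := by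
    intro s u hs'
    by_cases hx : ∀ v, s (u (s v)) = 0
    · exact Or.inr (LinearMap.ext hx)
    push Not at hx
    obtain ⟨v0, hv0⟩ := hx
    have hsv0 : s v0 ≠ 0 := fun h => hv0 (by rw [h, map_zero, map_zero])
    refine Or.inl (LinearMap.ext fun v => ?_)
    change s (u (s v)) = s v
    by_cases hv : s v = 0
    · rw [hv, map_zero, map_zero]
    · rw [hs' v v0 hv hsv0]
      exact hs' _ _ hv0 hsv0
  have transfer : ∀ {s u : Module.End R V}, (∀ v w, u v ≠ 0 → u w ≠ 0 → u v = u w) →
      s * u * s = s → s ≠ 0 → u * s * u = u := by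
    intro s u hu' hsus hs0
    obtain ⟨v0, hv0⟩ : ∃ v, s v ≠ 0 := by
      by_contra! h
      exact hs0 (LinearMap.ext h)
    have hsue : s (u (s v0)) = s v0 := LinearMap.congr_fun hsus v0
    have hue : u (s v0) ≠ 0 := fun h => hv0 (by rw [← hsue, h, map_zero])
    refine LinearMap.ext fun v => ?_
    change u (s (u v)) = u v
    by_cases hv : u v = 0
    · rw [hv, map_zero, map_zero]
    · rw [hu' v _ hv hue, hsue]
  by_cases hs0 : s = 0
  · subst hs0
    rw [add_zero, one_mul]
    have : (1 + u) ^ 2 = 1 := by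
      rw [pow_two, show (1 + u) * (1 + u) = 1 + (u + u) + u * u by noncomm_ring, two, hu]
      simp
    rw [show (12 : ℕ) = 2 * 6 by rfl, pow_mul, this, one_pow]
  have hσ : (1 + s) * (1 + s) = (1 : Module.End R V) := by
    rw [show (1 + s) * (1 + s) = 1 + (s + s) + s * s by noncomm_ring, two, hs]; simp
  have hτ : (1 + u) * (1 + u) = (1 : Module.End R V) := by
    rw [show (1 + u) * (1 + u) = 1 + (u + u) + u * u by noncomm_ring, two, hu]; simp
  rcases dich (u := u) hs' with hsus | hsus
  · have husu := transfer hu' hsus hs0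
    have braid : (1 + s) * (1 + u) * (1 + s) = (1 + u) * (1 + s) * (1 + u) := by
      calc (1 + s) * (1 + u) * (1 + s)
          = 1 + (s + s) + u + s * u + u * s + (s * s + s * u * s) := by noncomm_ring
        _ = 1 + (u + u) + s + u * s + s * u + (u * u + u * s * u) := by
            rw [hs, hu, hsus, husu, two, two]; abel
        _ = _ := by noncomm_ring
    generalize 1 + s = σ at *
    generalize 1 + u = τ at *
    have h3 : (σ * τ) ^ 3 = 1 := by
      calc (σ * τ) ^ 3 = (σ * τ * σ) * (τ * σ * τ) := by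
            rw [pow_three]; simp only [mul_assoc]
        _ = (σ * τ * σ) * (σ * τ * σ) := by rw [← braid]
        _ = σ * τ * (σ * σ) * τ * σ := by simp only [mul_assoc]
        _ = 1 := by rw [hσ, mul_one, mul_assoc σ, hτ, mul_one, hσ]
    rw [show (12 : ℕ) = 3 * 4 by rfl, pow_mul, h3, one_pow]
  · have husu : u * s * u = 0 := by
      by_cases hu0 : u = 0
      · simp [hu0]
      rcases dich (u := s) hu' with h | h
      · exact absurd ((transfer hs' h hu0).symm.trans hsus) hs0
      · exact h
    obtain ⟨Y, hY⟩ : ∃ Y, Y = s + u + s * u := ⟨_, rfl⟩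
    obtain ⟨Z, hZ⟩ : ∃ Z, Z = s * u + u * s := ⟨_, rfl⟩
    have e : (1 + s) * (1 + u) = 1 + Y := by rw [hY]; noncomm_ring
    have hYY : Y * Y = Z := by
      calc Y * Y = s * s + s * u + s * s * u + (u * s + u * u + u * s * u) +
            (s * u * s + s * (u * u) + s * u * s * u) := by rw [hY]; noncomm_ring
        _ = Z := by simp [hs, hu, hsus, husu, hZ]
    have hZZ : Z * Z = 0 := by
      calc Z * Z = s * u * s * u + s * (u * u) * s + u * (s * s) * u + u * s * u * s := by
            rw [hZ]; noncomm_ring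
        _ = 0 := by simp [hs, hu, hsus, husu]
    have h4 : ((1 + s) * (1 + u)) ^ 4 = 1 := by
      rw [e, show (4 : ℕ) = 2 * 2 by rfl, pow_mul,
        show (1 + Y) ^ 2 = 1 + Z by
          rw [pow_two, show (1 + Y) * (1 + Y) = 1 + (Y + Y) + Y * Y by noncomm_ring, two, hYY]
          simp,
        pow_two, show (1 + Z) * (1 + Z) = 1 + (Z + Z) + Z * Z by noncomm_ring, two, hZZ]
      simp
    rw [show (12 : ℕ) = 4 * 3 by rfl, pow_mul, h4, one_pow]

/-- A nontrivial image of a perfect group in a finite ring of characteristic two survives in some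
matrix quotient over a finite field. -/
theorem exists_matrix_quotient {K : Type u} [Group K] [Finite K] [Group.IsPerfect K]
    {Q : Type v} [Ring Q] [Finite Q] (h2 : (2 : Q) = 0) (f : K →* Q) (hf : ∃ k, f k ≠ 1) :
    ∃ (n : ℕ) (F : Type v) (_ : Field F) (_ : Finite F) (π : Q →+* Matrix (Fin n) (Fin n) F),
      0 < n ∧ CharP F 2 ∧ Function.Surjective π ∧ ∃ k, π (f k) ≠ 1 := by
  classical
  set J := Ring.jacobson Q
  obtain ⟨n, D, d, hD, hd, ⟨e⟩⟩ := IsSemisimpleRing.exists_ringEquiv_pi_matrix_divisionRing (Q ⧸ J)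
  let π : ∀ i, Q →+* Matrix (Fin (d i)) (Fin (d i)) (D i) := fun i =>
    (Pi.evalRingHom _ i).comp (e.toRingHom.comp (Ideal.Quotient.mk J))
  have hπ : ∀ i, Function.Surjective (π i) := fun i =>
    (Function.surjective_eval i).comp (e.surjective.comp Ideal.Quotient.mk_surjective)
  obtain ⟨i, k, hik⟩ : ∃ i k, π i (f k) ≠ 1 := by
    by_contra! h
    obtain ⟨k₀, hk₀⟩ := hf
    apply hk₀
    obtain ⟨m, hm⟩ := IsSemiprimaryRing.isNilpotent (R := Q)
    have hmem : ∀ k, f k - 1 ∈ J := fun k => by
      rw [← Ideal.Quotient.eq_zero_iff_mem, ← e.map_eq_zero_iff]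
      funext i
      have := h i k
      rw [map_sub, map_one, map_sub, map_one, Pi.sub_apply, Pi.one_apply]
      exact sub_eq_zero.2 this
    have hpow : ∀ (i : ℕ) (x : Q), x ^ 2 ^ i = 0 → (1 + x) ^ 2 ^ i = 1 := by
      intro i
      induction i with
      | zero => intro x hx; simp at hx; simp [hx]
      | succ i ih =>
        intro x hx
        rw [pow_succ', pow_mul] at hx ⊢
        rw [show (1 + x) ^ 2 = 1 + x ^ 2 by
          rw [pow_two, pow_two, show (1 + x) * (1 + x) = 1 + 2 * x + x * x by noncomm_ring, h2]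
          simp]
        exact ih _ hx
    have h0 : ∀ k, f k ^ 2 ^ m = 1 := fun k => by
      have hx : (f k - 1) ^ m = 0 := by
        have := Ideal.pow_mem_pow (hmem k) m
        rw [hm] at this
        exact this
      have := hpow m (f k - 1) (pow_eq_zero_of_le (Nat.lt_two_pow_self).le hx)
      rwa [add_sub_cancel] at this
    let Q' := K ⧸ f.ker
    have hp : IsPGroup 2 Q' := fun x => by
      induction x using QuotientGroup.induction_on with
      | _ y =>
        exact ⟨m, by rw [← QuotientGroup.mk_pow, QuotientGroup.eq_one_iff, MonoidHom.mem_ker,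
          map_pow, h0]⟩
    haveI : Group.IsNilpotent Q' := hp.isNilpotent
    haveI : Group.IsPerfect Q' := Group.IsPerfect.ofSurjective (QuotientGroup.mk'_surjective f.ker)
    rcases subsingleton_or_nontrivial Q' with hs | hn
    · exact MonoidHom.mem_ker.1 ((QuotientGroup.eq_one_iff k₀).1 (Subsingleton.elim _ _))
    · exact absurd (inferInstance : Group.IsSolvable Q') (Group.IsPerfect.not_isSolvable Q')
  have hne : NeZero (d i) := hd i
  haveI : Finite (D i) := Finite.of_surjective (fun q => π i q 0 0) fun x => by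
    obtain ⟨q, hq⟩ := hπ i (Matrix.of fun _ _ => x)
    exact ⟨q, by simp [hq]⟩
  letI : Field (D i) := littleWedderburn (D i)
  refine ⟨d i, D i, inferInstance, inferInstance, π i, Nat.pos_of_ne_zero hne.out, ?_, hπ i, k, hik⟩
  refine CharTwo.of_one_ne_zero_of_two_eq_zero one_ne_zero ?_
  have := congrFun (congrFun (congrArg (π i) h2) 0) 0
  rw [map_ofNat, map_zero] at this
  simpa [Matrix.ofNat_apply] using this

end Cfsg.Agent.H34.Comp86
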