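import Mathlib.Algebra.MonoidAlgebra.MapDomain
import Mathlib.Algebra.MonoidAlgebra.Basic
import Mathlib.RingTheory.SimpleRing.Matrix
import Mathlib.RingTheory.TwoSidedIdeal.Basic
import Cfsg.Agent.H34.Comp86.Small
import Cfsg.Agent.H34.Comp86.MatrixTwo

/-! The algebra generated by a component on a cyclic submodule fixed diagonally. -/

set_option autoImplicit false
set_option linter.style.haveILetI false
set_option linter.unusedSimpArgs false

namespace Cfsg.Agent.H34.Comp86

open Subgroup
open MonoidAlgebra (single)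

universe u v

set_option maxHeartbeats 1000000 in
/-- No best offender in characteristic two swaps two components. -/
theorem two_algebra {G : Type u} [Group G] [Finite G] {V : Type v} [AddCommGroup V] [Finite V]
    [Module (ZMod 2) V] (ρ : G →* Module.End (ZMod 2) V) {K : Subgroup G} (hK : IsQuasisimple K)
    {a : G} {B : Subgroup G} (hBab : ∀ x ∈ B, ∀ y ∈ B, x * y = y * x) (hB2 : ∀ b ∈ B, b * b = 1)
    (hab : ∀ b ∈ B, b * a = a * b) (ha2 : a * a = 1) (hBK : B ≤ normalizer (K : Set G))
    (hfree : ∀ b ∈ B, b ≠ 1 → b ∉ centralizer (K : Set G))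
    (hcomm : ∀ k ∈ K, ∀ l ∈ K, Commute k (a * l * a)) (w : V) (haw : ρ a w = w)
    (hBw : ∀ b ∈ B, ρ b w = w) (hDw : ∀ k ∈ K, ρ (k * (a * k * a)) w = w)
    (hDt : ∀ k ∈ K, ∀ v, ρ (k * (a * k * a)) (ρ a v - v) = ρ a v - v)
    (hKw : ∃ k ∈ K, ρ k w ≠ w)
    (hbound : Nat.card V ≤ 2 * Nat.card B * Nat.card (fixed ρ (B ⊔ zpowers a))) : False := by
  classical
  haveI := hK.1
  have two : ∀ v : V, v + v = 0 := fun v => by
    rw [← two_smul (ZMod 2) v, show (2 : ZMod 2) = 0 by decide, zero_smul]
  have hneg : ∀ v : V, -v = v := fun v => by rw [← add_eq_zero_iff_neg_eq, two]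
  have hcancel : ∀ (g : G) (v : V), ρ g⁻¹ (ρ g v) = v := fun g v => by
    rw [← Module.End.mul_apply, ← map_mul, inv_mul_cancel, map_one, Module.End.one_apply]
  have hDinv : ∀ (v : V) (k : G), ρ (k * (a * k * a)) v = v → ρ (a * k * a) v = ρ k⁻¹ v := by
    intro v k h
    conv_rhs => rw [← h, map_mul, Module.End.mul_apply, hcancel]
  let A := MonoidAlgebra (ZMod 2) K
  let φ : A →ₐ[ZMod 2] Module.End (ZMod 2) V := MonoidAlgebra.lift _ _ _ (ρ.comp K.subtype)
  let ev : A →ₗ[ZMod 2] V := (LinearMap.applyₗ w).comp φ.toLinearMap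
  have hev : ∀ z, ev z = φ z w := fun z => rfl
  have hφs : ∀ (k : K) (r : ZMod 2), φ (single k r) = r • ρ (k : G) := fun k r => by
    simp [φ, A, MonoidAlgebra.lift_single]
  -- `φ z` commutes with the translates
  have hφc : ∀ z, ∀ l ∈ K, Commute (φ z) (ρ (a * l * a)) := by
    intro z l hl
    induction z using MonoidAlgebra.induction_linear with
    | zero => rw [map_zero]; exact Commute.zero_left _
    | add x y hx hy => rw [map_add]; exact hx.add_left hy
    | single k r => rw [hφs]; exact Commute.smul_left ((hcomm k k.2 l hl).map ρ) r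
  -- `ev z = 0` makes `φ z` vanish on the whole orbit
  have hright : ∀ z y, ev z = 0 → ev (z * y) = 0 := by
    intro z y hz
    induction y using MonoidAlgebra.induction_linear with
    | zero => simp
    | add x y hx hy => rw [mul_add, map_add, hx, hy, add_zero]
    | single k r =>
      rw [hev, map_mul, Module.End.mul_apply, hφs, LinearMap.smul_apply, map_smul]
      have hk := hDinv w ((k : G)⁻¹) (hDw _ (K.inv_mem k.2))
      rw [inv_inv] at hk
      rw [← hk, ← Module.End.mul_apply, (hφc z _ (K.inv_mem k.2)).eq, Module.End.mul_apply,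
        ← hev, hz, map_zero, smul_zero]
  let W : Submodule (ZMod 2) V := LinearMap.range ev
  have hinv : ∀ z, ∀ v ∈ W, φ z v ∈ W := by
    rintro z _ ⟨y, rfl⟩
    exact ⟨z * y, by rw [hev, hev, map_mul, Module.End.mul_apply]⟩
  let ψ : A →+* Module.End (ZMod 2) W :=
    { toFun := fun z => (φ z).restrict (hinv z)
      map_one' := by ext v; simp
      map_mul' := fun x y => by ext v; simp
      map_zero' := by ext v; simp
      map_add' := fun x y => by ext v; simp }
  have hψ : ∀ z, ψ z = 0 ↔ ev z = 0 := by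
    intro z
    constructor
    · intro h
      have := congrArg (fun f : Module.End (ZMod 2) W => ((f ⟨ev 1, 1, rfl⟩ : W) : V)) h
      simpa [ψ, hev] using this
    · intro h
      refine LinearMap.ext fun ⟨v, y, hy⟩ => Subtype.ext ?_
      change φ z v = 0
      rw [← hy, hev, ← Module.End.mul_apply, ← map_mul, ← hev]
      exact hright z y h
  have hψeq : ∀ x y, ev x = ev y → ψ x = ψ y := fun x y h => by
    rw [← sub_eq_zero, ← map_sub, hψ, map_sub, h, sub_self]
  let Q := ψ.range
  let f : K →* Q := ψ.rangeRestrict.toMonoidHom.comp (MonoidAlgebra.of (ZMod 2) K)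
  have hQ2 : (2 : Q) = 0 := by
    refine Subtype.ext (LinearMap.ext fun v => Subtype.ext ?_)
    change (((2 : Module.End (ZMod 2) W) v : W) : V) = 0
    rw [show (2 : Module.End (ZMod 2) W) = 1 + 1 from one_add_one_eq_two.symm]
    exact two _
  have hf : ∃ k, f k ≠ 1 := by
    obtain ⟨k, hk, hkw⟩ := hKw
    refine ⟨⟨k, hk⟩, fun h => hkw ?_⟩
    have h' := congrArg (fun f : Q => ((f.1 ⟨ev 1, 1, rfl⟩ : W) : V)) h
    simp [f, ψ, hev] at h'
    erw [MonoidAlgebra.of_apply, hφs, one_smul] at h'
    exact h'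
  haveI : Finite (Module.End (ZMod 2) W) := Finite.of_injective _ DFunLike.coe_injective
  haveI : Finite Q := Finite.of_injective _ Subtype.val_injective
  obtain ⟨n, F, _, _, π₀, hn, hF2, hπ₀, k₀, hk₀⟩ := exists_matrix_quotient hQ2 f hf
  let π : A →+* Matrix (Fin n) (Fin n) F := π₀.comp ψ.rangeRestrict
  have hπs : Function.Surjective π := hπ₀.comp ψ.rangeRestrict_surjective
  have hπev : ∀ x y, ev x = ev y → π x = π y := fun x y h => by
    simp only [π, RingHom.comp_apply]
    exact congrArg π₀ (Subtype.ext (hψeq x y h))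
  have hπk : π (single k₀ 1) ≠ 1 := hk₀
  -- the anti-automorphism
  let τ : A → A := MonoidAlgebra.mapDomain fun k : K => k⁻¹
  have τadd : ∀ x y, τ (x + y) = τ x + τ y := fun x y => MonoidAlgebra.mapDomain_add _ x y
  have τsingle : ∀ k r, τ (single k r) = single k⁻¹ r := fun k r => MonoidAlgebra.mapDomain_single
  have τzero : τ 0 = 0 := MonoidAlgebra.mapDomain_zero _
  have τinvol : ∀ x, τ (τ x) = x := by
    intro x
    induction x using MonoidAlgebra.induction_linear with
    | zero => rw [τzero, τzero]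
    | add x y hx hy => rw [τadd, τadd, hx, hy]
    | single k r => rw [τsingle, τsingle, inv_inv]
  have τmul : ∀ x y, τ (x * y) = τ y * τ x := by
    intro x y
    induction x using MonoidAlgebra.induction_linear with
    | zero => rw [zero_mul, τzero, mul_zero]
    | add x x' hx hx' => rw [add_mul, τadd, τadd, mul_add, hx, hx']
    | single k r =>
      induction y using MonoidAlgebra.induction_linear with
      | zero => rw [mul_zero, τzero, zero_mul]
      | add y y' hy hy' => rw [mul_add, τadd, τadd, add_mul, hy, hy']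
      | single l s =>
        rw [MonoidAlgebra.single_mul_single, τsingle, τsingle, τsingle,
          MonoidAlgebra.single_mul_single, mul_inv_rev, mul_comm r]
  have hevτ : ∀ z, ev (τ z) = ρ a (ev z) := by
    intro z
    induction z using MonoidAlgebra.induction_linear with
    | zero => rw [τzero, map_zero, map_zero]
    | add x y hx hy => rw [τadd, map_add, map_add, map_add, hx, hy]
    | single k r =>
      rw [τsingle, hev, hev, hφs, hφs, LinearMap.smul_apply, LinearMap.smul_apply, map_smul,
        Subgroup.coe_inv]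
      congr 1
      rw [← hDinv w k (hDw k k.2), ← Module.End.mul_apply, ← map_mul]
      conv_rhs => rw [show a * (k : G) = a * k * a * a by rw [mul_assoc (a * (k : G)), ha2, mul_one],
        map_mul _ (a * (k : G) * a), Module.End.mul_apply, haw]
  -- sums `z + τ z` are central
  have hcentral : ∀ z y, π (z + τ z) * π y = π y * π (z + τ z) := by
    intro z y
    rw [← map_mul, ← map_mul]
    refine hπev _ _ ?_
    have hu : ev (z + τ z) = ρ a (ev z) - ev z := by
      rw [map_add, hevτ, sub_eq_add_neg, hneg, add_comm]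
    obtain ⟨d, hd⟩ : ∃ d, d = z + τ z := ⟨_, rfl⟩
    rw [← hd] at hu ⊢
    induction y using MonoidAlgebra.induction_linear with
    | zero => simp
    | add x y hx hy => rw [mul_add, add_mul, map_add, map_add, hx, hy]
    | single k r =>
      have hk := hDinv _ ((k : G)⁻¹) (hDw _ (K.inv_mem k.2))
      have hy := hDinv _ ((k : G)⁻¹) (hDt _ (K.inv_mem k.2) (ev z))
      rw [inv_inv] at hk hy
      rw [← hu] at hy
      rw [hev, hev, map_mul, map_mul, Module.End.mul_apply, Module.End.mul_apply, hφs,
        LinearMap.smul_apply, LinearMap.smul_apply, map_smul, ← hev, ← hk, ← hy,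
        ← Module.End.mul_apply, (hφc _ _ (K.inv_mem k.2)).eq, Module.End.mul_apply]
      rfl
  have hτker : ∀ z, π z = 0 → π (τ z) = 0 := by
    by_contra! h
    obtain ⟨z₀, hz₀, hz₀'⟩ := h
    let S : TwoSidedIdeal (Matrix (Fin n) (Fin n) F) :=
      TwoSidedIdeal.mk' {y | ∃ z, π z = 0 ∧ π (τ z) = y} ⟨0, map_zero _, by rw [τzero, map_zero]⟩
        (fun {x y} ⟨z, hz, e⟩ ⟨z', hz', e'⟩ =>
          ⟨z + z', by rw [map_add, hz, hz', add_zero], by rw [τadd, map_add, e, e']⟩)
        (fun {x} ⟨z, hz, e⟩ => ⟨-z, by rw [map_neg, hz, neg_zero], by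
          rw [← e, show τ (-z) = -τ z from eq_neg_of_add_eq_zero_left (by
            rw [← τadd, neg_add_cancel, τzero]), map_neg]⟩)
        (fun {x y} ⟨z, hz, e⟩ => by
          obtain ⟨u, rfl⟩ := hπs x
          exact ⟨z * τ u, by rw [map_mul, hz, zero_mul], by rw [τmul, τinvol, map_mul, e]⟩)
        (fun {x y} ⟨z, hz, e⟩ => by
          obtain ⟨u, rfl⟩ := hπs y
          exact ⟨τ u * z, by rw [map_mul, hz, mul_zero], by rw [τmul, τinvol, map_mul, e]⟩)
    haveI : Nonempty (Fin n) := ⟨⟨0, hn⟩⟩
    have hS : S = ⊤ := by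
      rcases IsSimpleOrder.eq_bot_or_eq_top S with h | h
      · have hm : π (τ z₀) ∈ S := by
          rw [TwoSidedIdeal.mem_mk']
          exact ⟨z₀, hz₀, rfl⟩
        rw [h, TwoSidedIdeal.mem_bot] at hm
        exact absurd hm hz₀'
      · exact h
    have hcommR : ∀ x y : Matrix (Fin n) (Fin n) F, x * y = y * x := by
      intro x y
      have hx : x ∈ S := hS ▸ trivial
      rw [TwoSidedIdeal.mem_mk'] at hx
      obtain ⟨z, hz, rfl⟩ := hx
      obtain ⟨u, rfl⟩ := hπs y
      have := hcentral z u
      rwa [map_add, hz, zero_add] at this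
    letI : CommMonoid (Matrix (Fin n) (Fin n) F) :=
      { (inferInstance : Monoid (Matrix (Fin n) (Fin n) F)) with mul_comm := hcommR }
    exact hπk (congrArg Units.val
      (hom_comm_trivial (MonoidHom.toHomUnits (π.toMonoidHom.comp (MonoidAlgebra.of (ZMod 2) K))) k₀))
  let lift := Function.surjInv hπs
  have hlift : ∀ y, π (lift y) = y := Function.surjInv_eq hπs
  let τR : Matrix (Fin n) (Fin n) F → Matrix (Fin n) (Fin n) F := fun y => π (τ (lift y))
  have hτR : ∀ z, τR (π z) = π (τ z) := fun z => by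
    have h0 := hτker (lift (π z) + -z) (by rw [map_add, map_neg, hlift, add_neg_cancel])
    rw [τadd, map_add, show τ (-z) = -τ z from eq_neg_of_add_eq_zero_left (by
      rw [← τadd, neg_add_cancel, τzero]), map_neg, add_neg_eq_zero] at h0
    exact h0
  have τRadd : ∀ x y, τR (x + y) = τR x + τR y := fun x y => by
    obtain ⟨x, rfl⟩ := hπs x; obtain ⟨y, rfl⟩ := hπs y
    rw [← map_add, hτR, hτR, hτR, τadd, map_add]
  have τRmul : ∀ x y, τR (x * y) = τR y * τR x := fun x y => by
    obtain ⟨x, rfl⟩ := hπs x; obtain ⟨y, rfl⟩ := hπs y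
    rw [← map_mul, hτR, hτR, hτR, τmul, map_mul]
  haveI := hF2
  have h2F : ∀ x : F, x + x = 0 := CharTwo.add_self_eq_zero
  have hscal : ∀ y, ∃ r, y + τR y = Matrix.scalar (Fin n) r := by
    intro y
    obtain ⟨z, rfl⟩ := hπs y
    obtain ⟨r, hr⟩ := (Matrix.mem_range_scalar_iff_commute_single' (M := π z + π (τ z))).2
      fun i j => by
        obtain ⟨u, hu⟩ := hπs (Matrix.single i j 1)
        rw [← hu, ← map_add]
        exact (hcentral z u).symm
    exact ⟨r, by rw [hτR]; exact hr.symm⟩
  choose c hc using hscal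
  have hτc : ∀ y, τR y = y + Matrix.scalar (Fin n) (c y) := fun y => by
    rw [← hc, ← add_assoc]
    ext i j
    simp only [Matrix.add_apply]
    linear_combination -(h2F (y i j))
  have hn2 : n = 2 := by
    have hle := anti_le_two τR τRmul c hτc
    by_contra hne
    have hn1 : n = 1 := by omega
    subst hn1
    letI : CommMonoid (Matrix (Fin 1) (Fin 1) F) :=
      { (inferInstance : Monoid (Matrix (Fin 1) (Fin 1) F)) with
        mul_comm := fun x y => by
          ext i j; fin_cases i; fin_cases j; simp [Matrix.mul_apply, mul_comm] }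
    exact hπk (congrArg Units.val
      (hom_comm_trivial (MonoidHom.toHomUnits (π.toMonoidHom.comp (MonoidAlgebra.of (ZMod 2) K))) k₀))
  subst hn2
  have hctr : ∀ y, c y = y 0 0 + y 1 1 := anti_two_eq τR τRadd τRmul c hτc
  -- the action of `B`
  let σ : B → (K →* K) := fun b =>
    MonoidHom.mk' (fun k => ⟨b * k * (b : G)⁻¹, (mem_normalizer_iff.1 (hBK b.2) k).1 k.2⟩)
      fun x y => Subtype.ext (by simp [mul_assoc])
  let β : B → (A →+* A) := fun b => MonoidAlgebra.mapDomainRingHom (ZMod 2) (σ b)
  have βsingle : ∀ b k r, β b (single k r) = single (σ b k) r := fun b k r =>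
    MonoidAlgebra.mapDomain_single
  have βmul : ∀ b b' x, β (b * b') x = β b (β b' x) := by
    intro b b' x
    induction x using MonoidAlgebra.induction_linear with
    | zero => simp
    | add x y hx hy => simp only [map_add, hx, hy]
    | single k r =>
      rw [βsingle, βsingle, βsingle]
      congr 1
      exact Subtype.ext (by simp [σ, mul_assoc])
  have βone : ∀ x, β 1 x = x := by
    intro x
    induction x using MonoidAlgebra.induction_linear with
    | zero => simp
    | add x y hx hy => simp only [map_add, hx, hy]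
    | single k r => rw [βsingle]; congr 1; exact Subtype.ext (by simp [σ])
  have βτ : ∀ b x, β b (τ x) = τ (β b x) := by
    intro b x
    induction x using MonoidAlgebra.induction_linear with
    | zero => simp [τzero]
    | add x y hx hy => simp only [τadd, map_add, hx, hy]
    | single k r => rw [τsingle, βsingle, βsingle, τsingle, map_inv]
  have hevβ : ∀ (b : B) z, ev (β b z) = ρ (b : G) (ev z) := by
    intro b z
    induction z using MonoidAlgebra.induction_linear with
    | zero => simp
    | add x y hx hy => simp only [map_add, hx, hy]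
    | single k r =>
      rw [βsingle, hev, hev, hφs, hφs, LinearMap.smul_apply, LinearMap.smul_apply, map_smul]
      congr 1
      change ρ ((b : G) * k * (b : G)⁻¹) w = _
      rw [map_mul, map_mul, Module.End.mul_apply, Module.End.mul_apply, hBw _ (B.inv_mem b.2)]
  have hB2' : ∀ b : B, b * b = 1 := fun b => Subtype.ext (hB2 b b.2)
  let BM : Subgroup B :=
    { carrier := {b | ∀ z, π z = 0 → π (β b z) = 0}
      one_mem' := fun z hz => by rwa [βone]
      mul_mem' := fun hx hy z hz => by rw [βmul]; exact hx _ (hy _ hz)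
      inv_mem' := fun {x} hx => by rw [inv_eq_of_mul_eq_one_right (hB2' x)]; exact hx }
  have hβπ : ∀ b : BM, ∀ z z', π z = π z' → π (β b z) = π (β b z') := fun b z z' h => by
    rw [← sub_eq_zero, ← map_sub, ← map_sub]
    exact b.2 _ (by rw [map_sub, h, sub_self])
  obtain ⟨βR, hβR⟩ : ∃ βR : BM → Matrix (Fin 2) (Fin 2) F → Matrix (Fin 2) (Fin 2) F,
      ∀ b z, βR b (π z) = π (β b z) :=
    ⟨fun b y => π (β b (lift y)), fun b z => hβπ b _ _ (hlift _)⟩
  have hBM2 : ∀ b : BM, b * b = 1 := fun b => Subtype.ext (hB2' b)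
  have hβR2 : ∀ b y, βR b (βR b y) = y := fun b y => by
    obtain ⟨z, rfl⟩ := hπs y
    rw [hβR, hβR, ← βmul, hB2', βone]
  let θ : BM →* RingAut (Matrix (Fin 2) (Fin 2) F) := MonoidHom.mk' (fun b =>
    RingEquiv.mk ⟨βR b, βR b, hβR2 b, hβR2 b⟩
      (fun x y => by
        obtain ⟨x, rfl⟩ := hπs x; obtain ⟨y, rfl⟩ := hπs y
        change βR b (π x * π y) = βR b (π x) * βR b (π y)
        rw [← map_mul, hβR, hβR, hβR, map_mul, map_mul])
      (fun x y => by
        obtain ⟨x, rfl⟩ := hπs x; obtain ⟨y, rfl⟩ := hπs y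
        change βR b (π x + π y) = βR b (π x) + βR b (π y)
        rw [← map_add, hβR, hβR, hβR, map_add, map_add])) fun b b' => RingEquiv.ext fun y => by
      obtain ⟨z, rfl⟩ := hπs y
      change βR (b * b') (π z) = βR b (βR b' (π z))
      rw [hβR, hβR, hβR, Subgroup.coe_mul, βmul]
  have hθ : ∀ b z, θ b (π z) = π (β b z) := hβR
  have hθinj : Function.Injective θ := by
    rw [injective_iff_map_eq_one]
    intro b hb
    by_contra hb1
    apply hπk
    have hbG : (b : G) ≠ 1 := fun h => hb1 (Subtype.ext (Subtype.ext h))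
    exact conj_invariant_hom_trivial hK (hBK b.1.2) (hfree _ b.1.2 hbG)
      (π.toMonoidHom.comp (MonoidAlgebra.of (ZMod 2) K)) (fun k => by
        change π (single _ 1) = π (single k 1)
        have := DFunLike.congr_fun hb (π (single k 1))
        rw [hθ, βsingle] at this
        exact this) k₀
  have htr : ∀ b z, z 0 0 = z 1 1 → θ b z 0 0 = θ b z 1 1 := by
    intro b y hy
    obtain ⟨z, rfl⟩ := hπs y
    have h0 : c (π z) = 0 := by rw [hctr, hy, h2F]
    have h1 : π (τ z) = π z := by rw [← hτR, hτc, h0, map_zero, add_zero]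
    have h3 : τR (θ b (π z)) = θ b (π z) := by
      rw [hθ, hτR, ← βτ]
      exact hβπ b _ _ h1
    rw [hτc] at h3
    have h4 : c (θ b (π z)) = 0 := by
      simpa using congrFun (congrFun (add_eq_left.1 h3) 0) 0
    rw [hctr] at h4
    linear_combination h4 - h2F (θ b (π z) 1 1)
  letI : CommGroup BM :=
    { BM.toGroup with mul_comm := fun x y => Subtype.ext (Subtype.ext (hBab _ x.1.2 _ y.1.2)) }
  have hbd := card_mul_fixed_le θ hBM2 hθinj htr
  -- the orbit of the kernel
  let T := B ⧸ BM
  haveI : Fintype T := Fintype.ofFinite T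
  let pr : T → A →+* Matrix (Fin 2) (Fin 2) F := fun t => π.comp (β t.out)
  have hprs : ∀ t, Function.Surjective (pr t) := fun t y => by
    obtain ⟨z, rfl⟩ := hπs y
    exact ⟨β t.out z, by simp [pr, ← βmul, hB2', βone]⟩
  have hsep : ∀ t t' : T, t ≠ t' → ∃ x, pr t x = 0 ∧ pr t' x = 1 := by
    intro t t' htt
    obtain ⟨x₀, hx₀, hx₀'⟩ : ∃ x, pr t x = 0 ∧ pr t' x ≠ 0 := by
      by_contra! h
      apply htt
      rw [← t.out_eq', ← t'.out_eq', QuotientGroup.eq]
      intro z hz
      rw [inv_eq_of_mul_eq_one_right (hB2' t.out),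
        show t.out * t'.out = t'.out * t.out from Subtype.ext (hBab _ t.out.2 _ t'.out.2), βmul]
      exact h (β t.out z) (by simp [pr, ← βmul, hB2', βone, hz])
    let S : TwoSidedIdeal (Matrix (Fin 2) (Fin 2) F) :=
      TwoSidedIdeal.mk' {y | ∃ x, pr t x = 0 ∧ pr t' x = y} ⟨0, map_zero _, map_zero _⟩
        (fun {x y} ⟨z, hz, e⟩ ⟨z', hz', e'⟩ =>
          ⟨z + z', by rw [map_add, hz, hz', add_zero], by rw [map_add, e, e']⟩)
        (fun {x} ⟨z, hz, e⟩ => ⟨-z, by rw [map_neg, hz, neg_zero], by rw [map_neg, e]⟩)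
        (fun {x y} ⟨z, hz, e⟩ => by
          obtain ⟨u, rfl⟩ := hprs t' x
          exact ⟨u * z, by rw [map_mul, hz, mul_zero], by rw [map_mul, e]⟩)
        (fun {x y} ⟨z, hz, e⟩ => by
          obtain ⟨u, rfl⟩ := hprs t' y
          exact ⟨z * u, by rw [map_mul, hz, zero_mul], by rw [map_mul, e]⟩)
    rcases IsSimpleOrder.eq_bot_or_eq_top S with h | h
    · have hm : pr t' x₀ ∈ S := by rw [TwoSidedIdeal.mem_mk']; exact ⟨x₀, hx₀, rfl⟩
      rw [h, TwoSidedIdeal.mem_bot] at hm
      exact absurd hm hx₀'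
    · have hm : (1 : Matrix (Fin 2) (Fin 2) F) ∈ S := h ▸ trivial
      rw [TwoSidedIdeal.mem_mk'] at hm
      exact hm
  have hidem : ∀ t', ∀ s : Finset T, t' ∉ s → ∃ x, pr t' x = 1 ∧ ∀ t ∈ s, pr t x = 0 := by
    intro t' s
    induction s using Finset.induction_on with
    | empty => exact fun _ => ⟨1, map_one _, by simp⟩
    | @insert t s _ ih =>
      intro hns
      rw [Finset.mem_insert, not_or] at hns
      obtain ⟨x, hx, hx'⟩ := ih hns.2
      obtain ⟨y, hy, hy'⟩ := hsep t t' (Ne.symm hns.1)
      refine ⟨x * y, by rw [map_mul, hx, hy', one_mul], fun u hu => ?_⟩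
      rcases Finset.mem_insert.1 hu with rfl | hu
      · rw [map_mul, hy, mul_zero]
      · rw [map_mul, hx' u hu, zero_mul]
  have hsurjT : ∀ g : T → Matrix (Fin 2) (Fin 2) F, ∃ x, ∀ t, pr t x = g t := by
    intro g
    choose e he he' using fun t' => hidem t' (Finset.univ.erase t') (by simp)
    choose l hl using fun t => hprs t (g t)
    refine ⟨∑ t, l t * e t, fun t => ?_⟩
    rw [map_sum, Finset.sum_eq_single t]
    · rw [map_mul, hl, he, mul_one]
    · intro u _ hu
      rw [map_mul, he' u t (by simp [Ne.symm hu]), mul_zero]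
    · simp
  have hprev : ∀ t x y, ev x = ev y → pr t x = pr t y := fun t x y h =>
    hπev _ _ (by rw [hevβ, hevβ, h])
  have hWmem : ∀ v : W, ∃ z, ev z = v := fun v => v.2
  choose pre hpre using hWmem
  let Φ : W →+ (T → Matrix (Fin 2) (Fin 2) F) := AddMonoidHom.mk' (fun v t => pr t (pre v))
    fun x y => funext fun t => by
      change pr t (pre (x + y)) = pr t (pre x) + pr t (pre y)
      rw [← map_add]
      exact hprev t _ _ (by rw [hpre, map_add, hpre, hpre]; rfl)
  have hΦs : Function.Surjective Φ := fun g => by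
    obtain ⟨x, hx⟩ := hsurjT g
    exact ⟨⟨ev x, x, rfl⟩, funext fun t => (hprev t _ _ (hpre _)).trans (hx t)⟩
  set Fx := fixed ρ (B ⊔ zpowers a) with hFx
  let FW : AddSubgroup W := (Fx.comap W.subtype).toAddSubgroup
  have hΦfix : Nat.card (FW.map Φ) ≤ Nat.card (FixedTrace θ) := by
    have hspec : ∀ g : FW.map Φ, ∃ y : FixedTrace θ, ∀ t, g.1 t = y.1 := by
      rintro ⟨_, v, hv, rfl⟩
      have hv' : ∀ g ∈ B ⊔ zpowers a, ρ g (v : V) = v := hv
      set z := pre v with hz
      have hza : π (τ z) = π z := hπev _ _ (by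
        rw [hevτ, hpre, hv' a (Subgroup.mem_sup_right (mem_zpowers a))])
      have hzb : ∀ b : B, π (β b z) = π z := fun b => hπev _ _ (by
        rw [hevβ, hpre, hv' b (Subgroup.mem_sup_left b.2)])
      refine ⟨⟨π z, ?_, fun b => by rw [hθ]; exact hzb b⟩, fun t => hzb t.out⟩
      have h0 := hτc (π z)
      rw [hτR, hza, left_eq_add] at h0
      have h4 : c (π z) = 0 := by simpa using congrFun (congrFun h0 0) 0
      rw [hctr] at h4
      linear_combination h4 - h2F (π z 1 1)
    choose y hy using hspec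
    refine Nat.card_le_card_of_injective y fun g g' h => Subtype.ext (funext fun t => ?_)
    rw [hy, hy, h]
  have hcardW : Nat.card (T → Matrix (Fin 2) (Fin 2) F) * Nat.card FW ≤
      Nat.card W * Nat.card (FW.map Φ) := by
    have h1 : Nat.card W = Nat.card (T → Matrix (Fin 2) (Fin 2) F) * Nat.card Φ.ker := by
      rw [← AddSubgroup.card_mul_index Φ.ker, AddSubgroup.index_ker, mul_comm,
        AddMonoidHom.range_eq_top_of_surjective Φ hΦs]
      simp
    have h2 : Nat.card FW ≤ Nat.card (FW.map Φ) * Nat.card Φ.ker := by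
      rw [← AddSubgroup.relIndex_ker, ← AddSubgroup.inf_relIndex_right,
        ← AddSubgroup.relIndex_bot_left, ← AddSubgroup.relIndex_bot_left,
        ← AddSubgroup.relIndex_mul_relIndex (⊥ : AddSubgroup W) (Φ.ker ⊓ FW) FW bot_le inf_le_right,
        mul_comm]
      refine Nat.mul_le_mul_left _ ?_
      rw [AddSubgroup.relIndex_bot_left, AddSubgroup.relIndex_bot_left]
      exact AddSubgroup.card_le_of_le inf_le_left
    calc _ ≤ Nat.card (T → Matrix (Fin 2) (Fin 2) F) * (Nat.card (FW.map Φ) * Nat.card Φ.ker) :=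
          Nat.mul_le_mul_left _ h2
      _ = _ := by rw [h1]; ring
  have hWb : Nat.card W ≤ 2 * Nat.card B * Nat.card FW := by
    have h := card_sup_mul_card_inf W Fx
    have hFW : Nat.card FW = Nat.card ↥(W ⊓ Fx) := Nat.card_congr
      { toFun := fun v => ⟨v.1.1, v.1.2, v.2⟩
        invFun := fun v => ⟨⟨v.1, v.2.1⟩, v.2.2⟩ }
    have hle : Nat.card ↥(W ⊔ Fx) ≤ Nat.card V :=
      Nat.card_le_card_of_injective Subtype.val Subtype.val_injective
    refine Nat.le_of_mul_le_mul_right (?_ : Nat.card W * Nat.card Fx ≤ _ * Nat.card Fx) Nat.card_pos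
    rw [← h, hFW, mul_right_comm]
    exact Nat.mul_le_mul_right _ (hle.trans hbound)
  set q := Nat.card F with hq
  set o := Nat.card T with ho
  have hcardR : Nat.card (T → Matrix (Fin 2) (Fin 2) F) = q ^ (4 * o) := by
    rw [Nat.card_fun, Matrix, Nat.card_fun, Nat.card_fun, Nat.card_fin, ← pow_mul, ← pow_mul, hq, ho]
    congr 1
    ring
  have hBcard : Nat.card B = o * Nat.card BM := BM.card_eq_card_quotient_mul_card_subgroup
  have hfinal : q ^ (4 * o) ≤ 2 * o * q ^ 3 := by
    refine Nat.le_of_mul_le_mul_right ?_ (Nat.card_pos (α := FW))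
    calc q ^ (4 * o) * Nat.card FW ≤ Nat.card W * Nat.card (FW.map Φ) := hcardR ▸ hcardW
      _ ≤ 2 * Nat.card B * Nat.card FW * Nat.card (FixedTrace θ) := Nat.mul_le_mul hWb hΦfix
      _ = 2 * o * (Nat.card BM * Nat.card (FixedTrace θ)) * Nat.card FW := by rw [hBcard]; ring
      _ ≤ 2 * o * q ^ 3 * Nat.card FW := by gcongr
  have hq2 : q = 2 := by
    have hq1 : 1 < q := Finite.one_lt_card
    have ho1 : 0 < o := Nat.card_pos
    by_contra hne
    have h3 : 3 ≤ q := by omega
    obtain ⟨j, hj⟩ : ∃ j, o = j + 1 := ⟨o - 1, by omega⟩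
    rw [hj, show 4 * (j + 1) = (4 * j + 1) + 3 by ring, pow_add] at hfinal
    have h4 := Nat.le_of_mul_le_mul_right hfinal (pow_pos (by omega) 3)
    have h5 : 4 * j + 1 < 2 ^ (4 * j + 1) := Nat.lt_two_pow_self
    have h6 : (2 : ℕ) ^ (4 * j + 1) ≤ q ^ (4 * j + 1) := Nat.pow_le_pow_left (by omega) _
    rcases Nat.eq_zero_or_pos j with rfl | hj0
    · simp at h4; omega
    · omega
  apply hπk
  refine hom_trivial_of_pow_twelve (π.toMonoidHom.comp (MonoidAlgebra.of (ZMod 2) K)) (fun k => ?_) k₀
  change π (single k 1) ^ 12 = 1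
  set u := π (single k 1)
  have hu : u * τR u = 1 := by
    rw [hτR, τsingle, ← map_mul, MonoidAlgebra.single_mul_single, mul_inv_cancel, one_mul]
    exact map_one π
  have hval : ∀ x : F, x = 0 ∨ x = 1 := by
    intro x
    haveI := Fintype.ofFinite F
    by_contra! h
    have h3 : ({0, 1, x} : Finset F).card ≤ Fintype.card F := Finset.card_le_univ _
    rw [Fintype.card_eq_nat_card, ← hq, hq2, Finset.card_insert_of_notMem (by simp [h.1.symm]),
      Finset.card_pair h.2.symm] at h3
    omega
  rw [hτc, mul_add] at hu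
  rcases hval (c u) with h | h <;> rw [h] at hu
  · rw [map_zero, mul_zero, add_zero] at hu
    rw [show (12 : ℕ) = 2 * 6 by rfl, pow_mul, pow_two, hu, one_pow]
  · rw [map_one, mul_one] at hu
    have h3 : u ^ 3 = 1 := by
      have hz : u + u = 0 := by ext i j; exact h2F _
      calc u ^ 3 = u * (u * u + u) - (u * u + u) + u := by noncomm_ring
        _ = 1 := by rw [hu, mul_one, sub_add_eq_add_sub, hz, zero_sub]; ext i j
                    simp only [Matrix.neg_apply]; exact CharTwo.neg_eq _
    rw [show (12 : ℕ) = 3 * 4 by rfl, pow_mul, h3, one_pow]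

end Cfsg.Agent.H34.Comp86
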