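import Cfsg.Agent.H34.Comp86.Descend
import Cfsg.Agent.H34.Comp86.TwoAlgebra

/-! Best offenders normalise every component. -/

set_option autoImplicit false
set_option linter.style.haveILetI false

namespace Cfsg.Agent.H34.Comp86

open Subgroup
open Cfsg

universe u v

section tools

variable {G : Type u} [Group G]

/-- An element mapping `K` onto itself normalises it. -/
theorem mem_normalizer_of_map_eq {K : Subgroup G} {x : G}
    (h : K.map (MulAut.conj x).toMonoidHom = K) : x ∈ normalizer (K : Set G) := by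
  rw [mem_normalizer_iff]
  intro y
  conv_rhs => rw [← h]
  exact ⟨fun hy => ⟨y, hy, rfl⟩, fun ⟨z, hz, e⟩ => by
    change x * z * x⁻¹ = x * y * x⁻¹ at e
    rwa [← mul_left_cancel (mul_right_cancel e)]⟩

/-- Composition of conjugations. -/
theorem map_conj_mul (K : Subgroup G) (x y : G) :
    K.map (MulAut.conj (x * y)).toMonoidHom =
      (K.map (MulAut.conj y).toMonoidHom).map (MulAut.conj x).toMonoidHom := by
  rw [Subgroup.map_map]
  congr 1
  ext z
  simp [mul_assoc]

/-- The kernel of the action on a commutative image of a perfect group is everything. -/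
theorem hom_trivial_of_comm_image {K : Type u} [Group K] [Group.IsPerfect K] {M : Type v} [Monoid M]
    (f : K →* M) (h : ∀ k l, f k * f l = f l * f k) (k : K) : f k = 1 := by
  letI : CommMonoid (MonoidHom.mrange f) :=
    { (inferInstance : Monoid (MonoidHom.mrange f)) with
      mul_comm := by
        rintro ⟨_, a, rfl⟩ ⟨_, b, rfl⟩
        exact Subtype.ext (h a b) }
  have := hom_comm_trivial (MonoidHom.toHomUnits f.mrangeRestrict) k
  exact congrArg (fun x : (MonoidHom.mrange f)ˣ => ((x : MonoidHom.mrange f) : M)) this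

end tools

set_option maxHeartbeats 1000000 in
/-- The case `p = 2`. -/
theorem le_normalizer_of_two {G : Type u} [Group G] [Finite G] {V : Type v} [AddCommGroup V]
    [Finite V] [Module (ZMod 2) V] (ρ : G →* Module.End (ZMod 2) V) (hρ : Function.Injective ρ)
    {A : Subgroup G} (hA : A ≠ ⊥) (hAel : IsElementaryAbelian 2 A)
    (hmax : ∀ B ≤ A, num ρ B ≤ num ρ A) (ih : Claim.{u, v} 2 (Nat.card A))
    {K : Subgroup G} (hK : IsComponent K)
    (hfree : ∀ a ∈ A, a ≠ 1 → a ∉ centralizer (K : Set G)) : A ≤ normalizer (K : Set G) := by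
  classical
  haveI := hAel.1
  haveI := hK.2.1
  have hab : ∀ x ∈ A, ∀ y ∈ A, x * y = y * x := fun x hx y hy => setLike_mul_comm (s := A) hx hy
  have hsq : ∀ x ∈ A, x * x = 1 := fun x hx => by rw [← pow_two]; exact hAel.2 x hx
  have hinv : ∀ x ∈ A, x⁻¹ = x := fun x hx => inv_eq_of_mul_eq_one_right (hsq x hx)
  intro a haA
  by_contra haN
  have ha1 : a ≠ 1 := fun h => haN (h ▸ one_mem _)
  have hainv := hinv a haA
  have haa := hsq a haA
  set L := K.map (MulAut.conj a).toMonoidHom with hLdef
  have hL : IsComponent L := H51.component_map_conj hK a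
  have hLmem : ∀ k ∈ K, a * k * a ∈ L := fun k hk =>
    ⟨k, hk, by change a * k * a⁻¹ = _; rw [hainv]⟩
  have hne : L ≠ K := fun h => haN (mem_normalizer_of_map_eq h)
  have hKL : ∀ x ∈ K, ∀ y ∈ L, Commute x y := fun x hx y hy =>
    (mem_centralizer_iff.1 (commutator_eq_bot_iff_le_centralizer.1
      ((H51.component_eq_or_commute hK hL).resolve_left (Ne.symm hne)) hx) y hy).symm
  have hcomm : ∀ k ∈ K, ∀ l ∈ K, Commute k (a * l * a) := fun k hk l hl => hKL k hk _ (hLmem l hl)
  -- the diagonal
  let δ : K →* G := MonoidHom.mk' (fun k => (k : G) * (a * k * a)) fun x y => by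
    have h := (hcomm y y.2 x x.2).eq
    calc ((x * y : K) : G) * (a * (x * y : K) * a)
        = (x : G) * (y * (a * x * a)) * (a * y * a) := by
          rw [Subgroup.coe_mul]
          simp only [mul_assoc]
          rw [← mul_assoc a a, haa, one_mul]
      _ = _ := by rw [h]; simp only [mul_assoc]
  have hδa : ∀ k : K, a * δ k * a = δ k := fun k => by
    change a * ((k : G) * (a * k * a)) * a = (k : G) * (a * k * a)
    rw [(hcomm k k.2 k k.2).eq]
    simp only [mul_assoc, haa, mul_one]
    rw [← mul_assoc a a, haa, one_mul]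
    calc (k : G) * (a * (k * a)) = (k : G) * (a * k * a) := by simp only [mul_assoc]
      _ = _ := by rw [(hcomm k k.2 k k.2).eq]; simp only [mul_assoc]
  -- the orbit of `K`
  have horbit : ∀ x ∈ A, K.map (MulAut.conj x).toMonoidHom = K ∨
      K.map (MulAut.conj x).toMonoidHom = L := by
    intro x hx
    set D := δ.range with hD
    set H := centralizer ({a} : Set G) with hH
    have hAH : A ≤ H := fun y hy => mem_centralizer_singleton_iff.2 (hab y hy a haA)
    have hDH : D ≤ H := by
      rintro _ ⟨k, rfl⟩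
      rw [mem_centralizer_singleton_iff]
      calc δ k * a = a * δ k * a * a := by rw [hδa]
        _ = a * δ k := by rw [mul_assoc (a * δ k), haa, mul_one]
    haveI : Nontrivial D := by
      rw [nontrivial_iff_ne_bot]
      intro hbot
      apply H51.quasisimple_commutator_ne_bot hK.2
      rw [commutator_eq_bot_iff_le_centralizer]
      intro k hk y hy
      have h1 : (k : G) * (a * k * a) = 1 :=
        (Subgroup.eq_bot_iff_forall _).1 hbot _ ⟨⟨k, hk⟩, rfl⟩
      have h2 : k ∈ L := by
        rw [← L.inv_mem_iff, inv_eq_of_mul_eq_one_right h1]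
        exact hLmem k hk
      exact (hKL y hy k h2).eq
    have hDq : IsQuasisimple D :=
      H51.quasisimple_of_surjective hK.2 δ.rangeRestrict δ.rangeRestrict_surjective
    have hLK : L ≤ normalizer (K : Set G) := H51.component_le_normalizer_component hL hK
    have hNsub : (K ⊔ L).IsSubnormal := by
      have hle : K ⊔ L ≤ layer G := sup_le (H51.component_le_layer hK) (H51.component_le_layer hL)
      refine Subgroup.IsSubnormal.step _ _ hle (H51.layer_normal G).isSubnormal ?_
      rw [normal_subgroupOf_iff_le_normalizer hle]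
      intro g hg
      rw [mem_normalizer_iff]
      have key : ∀ g ∈ layer G, ∀ y ∈ K ⊔ L, g * y * g⁻¹ ∈ K ⊔ L := by
        intro g hg y hy
        have h1 := mem_normalizer_iff.1 (H51.layer_le_normalizer_component hK hg)
        have h2 := mem_normalizer_iff.1 (H51.layer_le_normalizer_component hL hg)
        have : (K ⊔ L).map (MulAut.conj g).toMonoidHom ≤ K ⊔ L := by
          rw [Subgroup.map_sup]
          exact sup_le_sup (by rintro _ ⟨z, hz, rfl⟩; exact (h1 z).1 hz)
            (by rintro _ ⟨z, hz, rfl⟩; exact (h2 z).1 hz)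
        exact this ⟨y, hy, rfl⟩
      intro y
      refine ⟨key g hg y, fun h => ?_⟩
      simpa [mul_assoc] using key g⁻¹ ((layer G).inv_mem hg) _ h
    have hnorm : (K ⊔ L) ⊓ H ≤ normalizer (D : Set G) := by
      rintro g ⟨hg', hga⟩
      have hg : g ∈ ((K ⊔ L : Subgroup G) : Set G) := hg'
      rw [sup_comm, coe_mul_of_left_le_normalizer_right L K hLK] at hg
      obtain ⟨_, ⟨l, hl, rfl⟩, k, hk, rfl⟩ := hg
      have hga' : a * l * a⁻¹ * k * a = a * (a * l * a⁻¹ * k) := mem_centralizer_singleton_iff.1 hga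
      rw [hainv] at hga'
      change a * l * a⁻¹ * k ∈ normalizer (D : Set G)
      rw [hainv]
      have e1 : l * (a * k * a) = k * (a * l * a) := by
        have h := congrArg (a * ·) hga'
        simp only [← mul_assoc, haa, one_mul] at h
        calc l * (a * k * a) = l * a * k * a := by simp only [mul_assoc]
          _ = a * l * a * k := h
          _ = _ := (hcomm k hk l hl).eq.symm
      obtain ⟨z, hz⟩ : ∃ z, z = k⁻¹ * l := ⟨_, rfl⟩
      have hzK : z ∈ K := hz ▸ K.mul_mem (K.inv_mem hk) hl
      have hzL : z ∈ L := by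
        have : z = (a * l * a) * (a * k * a)⁻¹ := by
          rw [hz, eq_mul_inv_iff_mul_eq, mul_assoc, e1, inv_mul_cancel_left]
        rw [this]
        exact L.mul_mem (hLmem l hl) (L.inv_mem (hLmem k hk))
      have hzc : ∀ q : K, Commute z (δ q) := fun q =>
        (hKL q q.2 z hzL).symm.mul_right (hKL z hzK _ (hLmem q q.2))
      have hg' : a * l * a * k = δ ⟨l, hl⟩ * z⁻¹ := by
        change _ = l * (a * l * a) * z⁻¹
        rw [← (hcomm k hk l hl).eq]
        have : k = l * z⁻¹ := by rw [hz]; group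
        rw [this, mul_assoc l, mul_assoc l]
        congr 1
        exact (hKL _ (K.inv_mem hzK) _ (hLmem l hl)).eq
      rw [hg']
      refine mul_mem (le_normalizer ⟨_, rfl⟩) (inv_mem (centralizer_le_normalizer _ ?_))
      rintro _ ⟨q, rfl⟩
      exact (hzc q).eq.symm
    have hcomp : IsComponent (D.subgroupOf H) := by
      refine ⟨?_, H51.quasisimple_of_equiv hDq (subgroupOfEquivOfLe hDH).symm⟩
      have hDN : D ≤ K ⊔ L := by
        rintro _ ⟨k, rfl⟩
        exact mul_mem_sup k.2 (hLmem k k.2)
      refine Subgroup.IsSubnormal.step _ ((K ⊔ L).subgroupOf H) (fun z hz => hDN hz)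
        hNsub.subgroupOf ?_
      rw [normal_subgroupOf_iff_le_normalizer (show D.subgroupOf H ≤ (K ⊔ L).subgroupOf H from fun z hz => hDN hz)]
      intro z hz
      rw [mem_normalizer_iff]
      exact fun y => mem_normalizer_iff.1 (hnorm ⟨hz, z.2⟩) y
    have hAD := descend ρ hρ hAel hmax ih haA ha1 hAH le_rfl hDH hcomp hx
    by_contra! hx2
    obtain ⟨hxK, hxL⟩ := hx2
    set P := K.map (MulAut.conj x).toMonoidHom
    have hP : IsComponent P := H51.component_map_conj hK x
    set Q := L.map (MulAut.conj x).toMonoidHom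
    have hQ : IsComponent Q := H51.component_map_conj hL x
    have hQP : Q = P.map (MulAut.conj a).toMonoidHom := by
      change (K.map _).map _ = (K.map _).map _
      rw [← map_conj_mul, ← map_conj_mul, hab x hx a haA]
    have haaK : (L.map (MulAut.conj a).toMonoidHom) = K := by
      rw [hLdef, ← map_conj_mul, haa]
      ext z; simp
    have hQK : Q ≠ K := fun h => hxL (by
      have := congrArg (fun S : Subgroup G => S.map (MulAut.conj a).toMonoidHom) (hQP.symm.trans h)
      rw [← map_conj_mul, haa] at this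
      rw [hLdef, ← this]
      ext z; simp)
    have hQL : Q ≠ L := fun h => hxK (by
      have := congrArg (fun S : Subgroup G => S.map (MulAut.conj a).toMonoidHom) (hQP.symm.trans h)
      rw [← map_conj_mul, haa, haaK] at this
      rw [← this]
      ext z; simp)
    have hc : ∀ {X : Subgroup G}, IsComponent X → X ≠ K → X ≠ L → D ≤ centralizer (X : Set G) := by
      intro X hX h1 h2
      rintro _ ⟨k, rfl⟩
      exact Subgroup.mul_mem _
        (commutator_eq_bot_iff_le_centralizer.1
          ((H51.component_eq_or_commute hK hX).resolve_left (Ne.symm h1)) k.2)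
        (commutator_eq_bot_iff_le_centralizer.1
          ((H51.component_eq_or_commute hL hX).resolve_left (Ne.symm h2)) (hLmem k k.2))
    apply H51.quasisimple_commutator_ne_bot hDq
    rw [commutator_eq_bot_iff_le_centralizer]
    intro d hd
    obtain ⟨e, he, rfl⟩ : ∃ e ∈ D, d = x * e * x⁻¹ :=
      ⟨x⁻¹ * d * x, (mem_normalizer_iff''.1 hAD d).1 hd, by group⟩
    obtain ⟨k, rfl⟩ := he
    intro y hy
    have h1 : Commute y (x * k * x⁻¹) :=
      (mem_centralizer_iff.1 (hc hP hxK hxL hy) _ ⟨k, k.2, rfl⟩).symm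
    have h2 : Commute y (x * (a * k * a) * x⁻¹) :=
      (mem_centralizer_iff.1 (hc hQ hQK hQL hy) _ ⟨_, hLmem k k.2, rfl⟩).symm
    have := h1.mul_right h2
    change y * (x * ((k : G) * (a * k * a)) * x⁻¹) = x * ((k : G) * (a * k * a)) * x⁻¹ * y
    rw [show x * ((k : G) * (a * k * a)) * x⁻¹ = (x * k * x⁻¹) * (x * (a * k * a) * x⁻¹) by group]
    exact this.eq
  have hswap : ∀ x ∈ A, x ∉ normalizer (K : Set G) → x * a ∈ normalizer (K : Set G) := by
    intro x hx hxN
    apply mem_normalizer_of_map_eq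
    have h := (horbit x hx).resolve_left fun h => hxN (mem_normalizer_of_map_eq h)
    rw [hab x hx a haA, map_conj_mul, h, hLdef, ← map_conj_mul, haa]
    ext z; simp
  set B := A ⊓ normalizer (K : Set G) with hB
  have hAB : Nat.card A ≤ 2 * Nat.card B := by
    have h : ∀ x : A, ∃ e : Bool × B, (x : G) = (if e.1 then e.2.1 * a else e.2.1) := by
      intro x
      by_cases hxN : (x : G) ∈ normalizer (K : Set G)
      · exact ⟨(false, ⟨x, x.2, hxN⟩), rfl⟩
      · exact ⟨(true, ⟨(x : G) * a, A.mul_mem x.2 haA, hswap x x.2 hxN⟩),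
          by simp [mul_assoc, haa]⟩
    choose e he using h
    have := Nat.card_le_card_of_injective e fun x y hxy => Subtype.ext (by rw [he, he, hxy])
    simpa [Nat.card_prod] using this
  set S := A ⊓ fixing ρ (moved ρ A Set.univ) with hS
  have hrep := replacement ρ (fun x hx y hy => hab x hx y hy) hmax
  have hS1 : S ≠ ⊥ := replacement_ne_bot ρ hρ hA hAel hmax
  have hnum1 : Nat.card V ≤ num ρ A := by
    have h := hmax ⊥ bot_le
    have htop : fixed ρ (⊥ : Subgroup G) = ⊤ := eq_top_iff.2 fun v _ b hb => by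
      rw [Subgroup.mem_bot] at hb; simp [hb]
    unfold num at h
    rw [Subgroup.card_bot, one_mul, htop, Nat.card_congr (Submodule.topEquiv).toEquiv] at h
    exact h
  by_cases hSN : ∀ b ∈ S, b ∈ normalizer (K : Set G) → b = 1
  · -- a transvection moves `K`
    obtain ⟨c, hcS, hc1⟩ : ∃ c ∈ S, c ≠ 1 := by
      obtain ⟨⟨c, hcS⟩, hc⟩ := Subgroup.ne_bot_iff_exists_ne_one.1 hS1
      exact ⟨c, hcS, fun h => hc (Subtype.ext h)⟩
    have hcA : c ∈ A := hcS.1
    have hcN : c ∉ normalizer (K : Set G) := fun h => hc1 (hSN c hcS h)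
    have hS2 : Nat.card S ≤ 2 := by
      have h : ∀ x : S, (x : G) = 1 ∨ (x : G) = c := by
        intro x
        by_cases hxN : (x : G) ∈ normalizer (K : Set G)
        · exact Or.inl (hSN x x.2 hxN)
        · refine Or.inr ?_
          have h1 := mul_mem (hswap x x.2.1 hxN) (inv_mem (hswap c hcA hcN))
          rw [mul_inv_rev, ← mul_assoc, mul_inv_cancel_right, hinv c hcA] at h1
          have := hSN _ (S.mul_mem x.2 hcS) h1
          rw [mul_eq_one_iff_eq_inv, hinv c hcA] at this
          exact this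
      have h2 := Nat.card_le_card_of_injective (fun x : S => decide ((x : G) = 1)) fun x y hxy => by
        have hxy' : ((x : G) = 1 ↔ (y : G) = 1) := by simpa using hxy
        refine Subtype.ext ?_
        rcases h x with hx | hx
        · rw [hx, hxy'.1 hx]
        · rcases h y with hy | hy
          · exact absurd ((hxy'.2 hy).symm.trans hx) (Ne.symm hc1)
          · rw [hx, hy]
      simpa using h2
    obtain ⟨u, hu⟩ : ∃ u, u = ρ c - 1 := ⟨_, rfl⟩
    have hV : Nat.card V ≤ 2 * Nat.card (LinearMap.ker u) := by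
      refine (hnum1.trans hrep.1).trans (Nat.mul_le_mul hS2 (submodule_card_mono fun v hv => ?_))
      rw [LinearMap.mem_ker, hu, LinearMap.sub_apply, Module.End.one_apply, hv c hcS, sub_self]
    have hrange : Nat.card (LinearMap.range u) ≤ 2 := by
      rw [Submodule.card_eq_card_quotient_mul_card (LinearMap.ker u),
        Nat.card_congr u.quotKerEquivRange.toEquiv] at hV
      rw [mul_comm 2] at hV
      exact Nat.le_of_mul_le_mul_left hV Nat.card_pos
    have huu' : ∀ v w, u v ≠ 0 → u w ≠ 0 → u v = u w := by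
      intro v w hv hw
      by_contra hne'
      haveI := Fintype.ofFinite (LinearMap.range u)
      have hle := Finset.card_le_univ
        ({0, ⟨u v, v, rfl⟩, ⟨u w, w, rfl⟩} : Finset (LinearMap.range u))
      rw [Fintype.card_eq_nat_card, Finset.card_insert_of_notMem (by
          simp only [Finset.mem_insert, Finset.mem_singleton, Subtype.ext_iff, not_or]
          exact ⟨Ne.symm hv, Ne.symm hw⟩),
        Finset.card_pair (fun h => hne' (congrArg Subtype.val h))] at hle
      omega
    have two : ∀ v : V, v + v = 0 := fun v => by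
      rw [← two_smul (ZMod 2) v, show (2 : ZMod 2) = 0 by decide, zero_smul]
    have hc2 : ρ c * ρ c = 1 := by rw [← map_mul, hsq c hcA, map_one]
    have huu : u * u = 0 := by
      rw [hu, show (ρ c - 1) * (ρ c - 1) = ρ c * ρ c + 1 - (ρ c + ρ c) by noncomm_ring, hc2,
        ← sub_eq_zero]
      refine LinearMap.ext fun v => ?_
      simp [two]
    have hpow : ∀ k ∈ K, k ^ 12 ∈ centralizer (K : Set G) := by
      intro k hk
      obtain ⟨s, hs⟩ : ∃ s, s = ρ k⁻¹ * u * ρ k := ⟨_, rfl⟩
      have hkk : ρ k * ρ k⁻¹ = 1 := by rw [← map_mul, mul_inv_cancel, map_one]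
      have hkk' : ρ k⁻¹ * ρ k = 1 := by rw [← map_mul, inv_mul_cancel, map_one]
      have hss : s * s = 0 := by
        calc s * s = ρ k⁻¹ * (u * (ρ k * ρ k⁻¹) * u) * ρ k := by rw [hs]; simp only [mul_assoc]
          _ = 0 := by rw [hkk, mul_one, huu, mul_zero, zero_mul]
      have hss' : ∀ v w, s v ≠ 0 → s w ≠ 0 → s v = s w := by
        intro v w hv hw
        simp only [hs, Module.End.mul_apply] at hv hw ⊢
        exact congrArg _ (huu' _ _ (fun h => hv (by rw [h, map_zero])) fun h => hw (by rw [h, map_zero]))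
      have h12 := transvection_mul_pow_twelve two hss huu hss' huu'
      have hg : (1 + s) * (1 + u) = ρ (k⁻¹ * (c * k * c)) := by
        have e : 1 + s = ρ k⁻¹ * ρ c * ρ k := by
          rw [hs, hu, mul_sub, sub_mul, mul_one, hkk']
          abel
        rw [e, hu, add_sub_cancel, ← map_mul, ← map_mul, ← map_mul]
        congr 1
        simp only [mul_assoc]
      rw [hg, ← map_pow, ← map_one ρ] at h12
      have h := hρ h12
      have hcL : ∀ y ∈ K, c * y * c ∈ L := fun y hy => by
        rw [← (horbit c hcA).resolve_left fun h => hcN (mem_normalizer_of_map_eq h)]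
        exact ⟨y, hy, by change c * y * c⁻¹ = _; rw [hinv c hcA]⟩
      rw [(hKL k⁻¹ (K.inv_mem hk) _ (hcL k hk)).mul_pow, inv_pow, inv_mul_eq_one] at h
      intro y hy
      exact (hKL y hy (k ^ 12) (h ▸ L.pow_mem (hcL k hk) 12)).eq
    apply H51.quasisimple_commutator_ne_bot hK.2
    rw [commutator_eq_bot_iff_le_centralizer]
    intro y hy z hz
    have h := hom_trivial_of_pow_twelve (QuotientGroup.mk' (center K)) (fun k => by
      rw [← map_pow]
      refine (QuotientGroup.eq_one_iff _).2 (mem_center_iff.2 fun m => Subtype.ext ?_)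
      exact hpow k k.2 m m.2) ⟨y, hy⟩
    exact congrArg Subtype.val (mem_center_iff.1 ((QuotientGroup.eq_one_iff _).1 h) ⟨z, hz⟩)
  push Not at hSN
  obtain ⟨b, hbS, hbN, hb1⟩ := hSN
  have hbA : b ∈ A := hbS.1
  have hfixb : ∀ v, ρ b (ρ a v - v) = ρ a v - v := fun v =>
    hbS.2 _ (sub_mem_moved ρ haA (Set.mem_univ v))
  have hDmap : ∀ (k : K) (v : V), ρ (δ k) (ρ a v - v) = ρ a (ρ (δ k) v) - ρ (δ k) v := fun k v => by
    have e : δ k * a = a * δ k := by
      calc δ k * a = a * δ k * a * a := by rw [hδa]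
        _ = a * δ k := by rw [mul_assoc (a * δ k), haa, mul_one]
    rw [map_sub, ← Module.End.mul_apply, ← map_mul, e, map_mul, Module.End.mul_apply]
  let N : Subgroup K :=
    { carrier := {k | ∀ v, ρ (δ k) (ρ a v - v) = ρ a v - v}
      one_mem' := fun v => by rw [map_one, map_one, Module.End.one_apply]
      mul_mem' := fun hx hy v => by rw [map_mul, map_mul, Module.End.mul_apply, hy, hx]
      inv_mem' := fun {x} hx v => by
        conv_lhs => rw [← hx v]
        rw [← Module.End.mul_apply, ← map_mul, ← map_mul, inv_mul_cancel, map_one, map_one,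
          Module.End.one_apply] }
  haveI : N.Normal := ⟨fun n hn g v => by
    rw [map_mul, map_mul, map_mul, map_mul, Module.End.mul_apply, Module.End.mul_apply,
      hDmap g⁻¹ v, hn, ← hDmap g⁻¹ v, ← Module.End.mul_apply, ← map_mul, ← map_mul,
      mul_inv_cancel, map_one, map_one, Module.End.one_apply]⟩
  have hN : N = ⊤ := conj_invariant_normal hK.2 hbN (hfree b hbA hb1) N fun k v => by
    have hinvb := hinv b hbA
    have e : δ ⟨b * k * b⁻¹, (mem_normalizer_iff.1 hbN k).1 k.2⟩ = b * δ k * b := by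
      change b * k * b⁻¹ * (a * (b * k * b⁻¹) * a) = b * ((k : G) * (a * k * a)) * b
      rw [hinvb]
      calc b * k * b * (a * (b * k * b) * a)
          = b * k * (b * (a * b)) * k * (b * a) := by simp only [mul_assoc]
        _ = b * k * (b * (b * a)) * k * (a * b) := by rw [hab a haA b hbA]
        _ = b * k * a * k * (a * b) := by rw [← mul_assoc b b a, hsq b hbA, one_mul]
        _ = _ := by simp only [mul_assoc]
    rw [map_mul, map_mul, Module.End.mul_apply, e, map_mul, map_mul, Module.End.mul_apply,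
      Module.End.mul_apply, hDmap k⁻¹ v, hfixb, ← hDmap k⁻¹ v]
    have h2 : ρ (δ k) (ρ (δ k⁻¹) (ρ a v - v)) = ρ a v - v := by
      rw [← Module.End.mul_apply, ← map_mul, ← map_mul, mul_inv_cancel, map_one, map_one,
        Module.End.one_apply]
    rw [h2, hfixb]
  have hDt : ∀ k ∈ K, ∀ v, ρ (k * (a * k * a)) (ρ a v - v) = ρ a v - v := fun k hk v =>
    (hN ▸ mem_top (⟨k, hk⟩ : K) : (⟨k, hk⟩ : K) ∈ N) v
  -- pass to `X = V / C_V(K L)`
  set M := normalizer ((K ⊔ L : Subgroup G) : Set G) with hM
  have hKM : K ≤ M := le_sup_left.trans le_normalizer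
  have hAM : A ≤ M := by
    have key : ∀ x ∈ A, ∀ y ∈ K ⊔ L, x * y * x⁻¹ ∈ K ⊔ L := by
      intro x hx y hy
      have : (K ⊔ L).map (MulAut.conj x).toMonoidHom ≤ K ⊔ L := by
        rw [Subgroup.map_sup]
        refine sup_le ?_ ?_
        · rcases horbit x hx with h | h <;> rw [h] <;> simp
        · rw [hLdef, ← map_conj_mul]
          rcases horbit (x * a) (A.mul_mem hx haA) with h | h <;> rw [h] <;> simp [hLdef]
      exact this ⟨y, hy, rfl⟩
    intro x hx
    rw [hM, mem_normalizer_iff]
    exact fun y => ⟨key x hx y, fun h => by simpa [mul_assoc] using key x⁻¹ (A.inv_mem hx) _ h⟩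
  set Z := fixed ρ (K ⊔ L) with hZ
  have hZinv : ∀ g ∈ M, ∀ v ∈ Z, ρ g v ∈ Z := fun g hg v hv n hn => by
    have : n * g = g * (g⁻¹ * n * g) := by group
    rw [← Module.End.mul_apply, ← map_mul, this, map_mul, Module.End.mul_apply,
      hv _ ((mem_normalizer_iff''.1 hg n).1 hn)]
  let ρX : M →* Module.End (ZMod 2) (V ⧸ Z) :=
    { toFun := fun g => Z.mapQ Z (ρ (g : G)) fun v hv => hZinv g g.2 v hv
      map_one' := by ext v; simp
      map_mul' := fun x y => by ext v; simp }
  haveI : Finite (V ⧸ Z) := Finite.of_surjective _ (Submodule.Quotient.mk_surjective Z)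
  set aM : M := ⟨a, hAM haA⟩
  have hKM' : IsQuasisimple (K.subgroupOf M) :=
    H51.quasisimple_of_equiv hK.2 (subgroupOfEquivOfLe hKM).symm
  haveI := hKM'.1
  have hcX : ∀ x : V ⧸ Z, (∀ k : M, (k : G) ∈ K → ρX k x = x) →
      (∀ k : M, (k : G) ∈ K → ρX (aM * k * aM) x = x) → x = 0 := by
    intro x h1 h2
    obtain ⟨u, rfl⟩ := Submodule.Quotient.mk_surjective Z x
    rw [Submodule.Quotient.mk_eq_zero]
    have hK1 : ∀ (g : G), g ∈ K → ρ g u - u ∈ Z := fun g hg =>
      (Submodule.Quotient.eq Z).1 (h1 ⟨g, hKM hg⟩ hg)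
    have hL1 : ∀ (g : G), g ∈ L → ρ g u - u ∈ Z := by
      rintro _ ⟨k, hk, rfl⟩
      have := (Submodule.Quotient.eq Z).1 (h2 ⟨k, hKM hk⟩ hk)
      change ρ (a * k * a⁻¹) u - u ∈ Z
      rw [hainv]
      exact this
    have fixX : ∀ (X : Subgroup G), X ≤ K ⊔ L → Group.IsPerfect X → (∀ g ∈ X, ρ g u - u ∈ Z) →
        ∀ g ∈ X, ρ g u = u := by
      intro X hX hperf hu g hg
      haveI := hperf
      have hspan : ∀ (x : X), ∀ w ∈ Submodule.span (ZMod 2) {u}, ρ (x : G) w - w ∈ Z := by
        intro x w hw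
        obtain ⟨r, rfl⟩ := Submodule.mem_span_singleton.1 hw
        rw [map_smul, ← smul_sub]
        exact Z.smul_mem r (hu x x.2)
      have := stab (ρ.comp X.subtype) (Submodule.span (ZMod 2) {u}) Z ⊥ hspan
        (fun x w hw => by simp [hw _ (hX x.2)]) ⟨g, hg⟩ (Submodule.mem_span_singleton_self u)
      rw [Submodule.mem_bot, sub_eq_zero] at this
      exact this
    have hle : K ⊔ L ≤ fixing ρ (Submodule.span (ZMod 2) {u}) := by
      refine sup_le ?_ ?_
      · intro g hg w hw
        obtain ⟨r, rfl⟩ := Submodule.mem_span_singleton.1 hw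
        rw [map_smul, fixX K le_sup_left hK.2.1 hK1 g hg]
      · intro g hg w hw
        obtain ⟨r, rfl⟩ := Submodule.mem_span_singleton.1 hw
        rw [map_smul, fixX L le_sup_right hL.2.1 hL1 g hg]
    exact fun n hn => hle hn u (Submodule.mem_span_singleton_self u)
  have two : ∀ v : V ⧸ Z, v + v = 0 := fun v => by
    rw [← two_smul (ZMod 2) v, show (2 : ZMod 2) = 0 by decide, zero_smul]
  have haM2 : aM * aM = 1 := Subtype.ext haa
  set t := ρX aM - 1 with ht
  have ht0 : LinearMap.range t ≠ ⊥ := by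
    intro h0
    have ha' : ρX aM = 1 := by
      rw [← sub_eq_zero, ← LinearMap.range_eq_bot]; exact h0
    have hsame : ∀ k : M, ρX (aM * k * aM) = ρX k := fun k => by
      rw [map_mul, map_mul, ha', one_mul, mul_one]
    have htriv : ∀ k : K.subgroupOf M, ρX (k : M) = 1 :=
      hom_trivial_of_comm_image (ρX.comp (K.subgroupOf M).subtype) fun k l => by
        change ρX (k : M) * ρX (l : M) = ρX (l : M) * ρX (k : M)
        rw [← hsame (l : M)]
        exact (show Commute (k : M) (aM * l * aM) from
          Subtype.ext (hcomm _ k.2 _ l.2).eq).map ρX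
    have hall : ∀ x : V ⧸ Z, x = 0 := fun x => hcX x
      (fun k hk => by rw [htriv ⟨k, hk⟩]; rfl)
      fun k hk => by rw [hsame, htriv ⟨k, hk⟩]; rfl
    apply H51.component_ne_bot hK
    rw [Subgroup.eq_bot_iff_forall]
    intro k hk
    refine hρ (LinearMap.ext fun v => ?_)
    rw [map_one, Module.End.one_apply]
    exact (Submodule.Quotient.mk_eq_zero Z).1 (hall (Submodule.Quotient.mk v)) k (mem_sup_left hk)
  -- a vector of `[X, a]` fixed by `B`
  have hBM : B ≤ M := inf_le_left.trans hAM
  haveI := Fintype.ofFinite B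
  set s : Finset (Module.End (ZMod 2) (V ⧸ Z)) :=
    Finset.univ.image fun c : B => ρX ⟨c, hBM c.2⟩ - 1
  obtain ⟨w, ⟨w₀, hw₀⟩, hw0, hws⟩ := exists_common_kernel s (LinearMap.range t) ht0
    (by
      simp only [s, Finset.mem_image, Finset.mem_univ, true_and]
      rintro _ ⟨c, rfl⟩
      exact isNilpotent_sub_one ρX (Subtype.ext (hAel.2 c c.2.1)))
    (by
      simp only [s, Finset.mem_image, Finset.mem_univ, true_and]
      rintro _ ⟨c, rfl⟩ _ ⟨d, rfl⟩
      exact ((((show Commute (⟨c, hBM c.2⟩ : M) ⟨d, hBM d.2⟩ from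
        Subtype.ext (hab c c.2.1 d d.2.1)).map ρX).sub_right (Commute.one_right _)).sub_left
        ((Commute.one_left _).sub_right (Commute.one_left _))))
    (by
      simp only [s, Finset.mem_image, Finset.mem_univ, true_and]
      rintro _ ⟨c, rfl⟩ _ ⟨x, rfl⟩
      refine ⟨(ρX ⟨c, hBM c.2⟩ - 1) x, ?_⟩
      rw [← Module.End.mul_apply, ← Module.End.mul_apply]
      congr 1
      exact (((show Commute aM ⟨c, hBM c.2⟩ from
        Subtype.ext (hab a haA c c.2.1)).map ρX).sub_right (Commute.one_right _)).sub_left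
        ((Commute.one_left _).sub_right (Commute.one_left _)))
  have haw : ρX aM w = w := by
    rw [← hw₀, ht, LinearMap.sub_apply, Module.End.one_apply, map_sub, ← Module.End.mul_apply,
      ← map_mul, haM2, map_one, Module.End.one_apply, ← sub_eq_zero]
    rw [show ∀ p q : V ⧸ Z, (p - q) - (q - p) = (p + p) - (q + q) from fun p q => by abel, two,
      two, sub_zero]
  have hDtX : ∀ k ∈ K.subgroupOf M, ∀ x,
      ρX (k * (aM * k * aM)) (ρX aM x - x) = ρX aM x - x := by
    intro k hk x
    obtain ⟨v, rfl⟩ := Submodule.Quotient.mk_surjective Z x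
    exact congrArg (Submodule.Quotient.mk (p := Z)) (hDt _ hk v)
  have hDw : ∀ k ∈ K.subgroupOf M, ρX (k * (aM * k * aM)) w = w := fun k hk => by
    rw [← hw₀]; exact hDtX k hk w₀
  have hBw : ∀ c ∈ B.subgroupOf M, ρX c w = w := fun c hc => by
    rw [← sub_eq_zero]
    exact hws _ (Finset.mem_image.2 ⟨⟨c, hc⟩, Finset.mem_univ _, rfl⟩)
  refine two_algebra ρX hKM' (a := aM) (B := B.subgroupOf M)
    (fun x hx y hy => Subtype.ext (hab _ hx.1 _ hy.1)) (fun c hc => Subtype.ext (hsq _ hc.1))
    (fun c hc => Subtype.ext (hab _ hc.1 a haA)) haM2 ?_ ?_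
    (fun k hk l hl => Subtype.ext (hcomm _ hk _ hl).eq) w haw hBw hDw hDtX ?_ ?_
  · intro c hc
    rw [mem_normalizer_iff]
    exact fun y => mem_normalizer_iff.1 hc.2 y
  · intro c hc hc1 hcc
    refine hfree c hc.1 (fun h => hc1 (Subtype.ext h)) fun y hy => ?_
    exact congrArg Subtype.val (hcc ⟨y, hKM hy⟩ hy)
  · by_contra! hfix
    refine hw0 (hcX w (fun k hk => hfix k hk) fun k hk => ?_)
    have := hDw k hk
    rw [map_mul, Module.End.mul_apply] at this
    calc ρX (aM * k * aM) w = ρX k⁻¹ (ρX k (ρX (aM * k * aM) w)) := by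
          rw [← Module.End.mul_apply (ρX k⁻¹), ← map_mul, inv_mul_cancel, map_one, Module.End.one_apply]
      _ = w := by rw [this]; exact hfix _ (inv_mem hk)
  · -- the numerical bound
    set Fx := fixed ρX (B.subgroupOf M ⊔ zpowers aM)
    have hmap : ∀ v ∈ fixed ρ A, Z.mkQ v ∈ Fx := by
      intro v hv
      have hle : B.subgroupOf M ⊔ zpowers aM ≤ A.subgroupOf M :=
        sup_le (fun c hc => hc.1) (zpowers_le.2 haA)
      intro g hg
      exact congrArg (Submodule.Quotient.mk (p := Z)) (hv _ (hle hg))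
    have h1 : Nat.card (fixed ρ A) ≤ Nat.card Fx * Nat.card Z := by
      let g : fixed ρ A →ₗ[ZMod 2] Fx :=
        (Z.mkQ.comp (fixed ρ A).subtype).codRestrict Fx fun v => hmap v v.2
      rw [Submodule.card_eq_card_quotient_mul_card (LinearMap.ker g),
        Nat.card_congr g.quotKerEquivRange.toEquiv, mul_comm]
      refine Nat.mul_le_mul (Nat.card_le_card_of_injective Subtype.val Subtype.val_injective) ?_
      refine Nat.card_le_card_of_injective (fun v : LinearMap.ker g =>
        (⟨(v : fixed ρ A).1, (Submodule.Quotient.mk_eq_zero Z).1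
          (congrArg Subtype.val (LinearMap.mem_ker.1 v.2))⟩ : Z)) fun v w h => ?_
      exact Subtype.ext (Subtype.ext (congrArg (fun z : Z => (z : V)) h))
    have hBc : Nat.card (B.subgroupOf M) = Nat.card B :=
      Nat.card_congr (subgroupOfEquivOfLe hBM).toEquiv
    rw [hBc]
    refine Nat.le_of_mul_le_mul_right ?_ (Nat.card_pos (α := Z))
    calc Nat.card (V ⧸ Z) * Nat.card Z = Nat.card V := by
          rw [Submodule.card_eq_card_quotient_mul_card Z, mul_comm]
      _ ≤ Nat.card A * Nat.card (fixed ρ A) := hnum1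
      _ ≤ 2 * Nat.card B * (Nat.card Fx * Nat.card Z) := Nat.mul_le_mul hAB h1
      _ = _ := by ring

/-- The `P(G, V)`-theorem. -/
theorem le_normalizer_component (p : ℕ) [Fact p.Prime] (n : ℕ) : Claim.{u, v} p n := by
  induction n using Nat.strong_induction_on with
  | _ n ih =>
    intro G _ _ V _ _ _ ρ hρ A hlt hA hAel hmax K hK
    have ihA : Claim.{u, v} p (Nat.card A) := ih _ hlt
    by_cases hcen : ∃ a ∈ A, a ≠ 1 ∧ a ∈ centralizer (K : Set G)
    · obtain ⟨a, haA, ha1, haK⟩ := hcen
      haveI := hAel.1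
      refine descend ρ hρ hAel hmax ihA haA ha1 (H := centralizer ({a} : Set G))
        (fun y hy => mem_centralizer_singleton_iff.2 (setLike_mul_comm (s := A) hy haA)) le_rfl ?_
        (H51.component_subgroupOf hK ?_) <;>
      exact fun y hy => mem_centralizer_singleton_iff.2 (mem_centralizer_iff.1 haK y hy)
    push Not at hcen
    by_cases hp : p = 2
    · subst hp
      exact le_normalizer_of_two ρ hρ hA hAel hmax ihA hK hcen
    · exact le_normalizer_of_odd ρ hp hρ hA hAel hmax hK hcen

end Cfsg.Agent.H34.Comp86
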