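import Mathlib.Tactic.NoncommRing
import Cfsg.Prelude.Def_Local
import Cfsg.Agent.H34.Comp86.Basic
import Cfsg.Agent.H23.Quadratic
import Cfsg.Agent.H51.Component

/-! The odd case: quadratic elements and commuting components. -/

set_option autoImplicit false
set_option linter.style.haveILetI false

namespace Cfsg.Agent.H34.Comp86

open Subgroup
open Cfsg

variable {p : ℕ} [hp : Fact p.Prime] {G : Type*} [Group G] {V : Type*} [AddCommGroup V]
  [Module (ZMod p) V] (ρ : G →* Module.End (ZMod p) V)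

/-- If `V = [V, L]`, a quadratic `b` (`p` odd) centralises everything commuting with `L`. -/
theorem commute_of_commute_quasisimple (hp2 : p ≠ 2) {L : Subgroup G} (hL : IsQuasisimple L)
    {b : G} (hbL : b ∈ normalizer (L : Set G)) (hb : b ∉ centralizer (L : Set G))
    (hquad : (ρ b - 1) * (ρ b - 1) = 0) (htop : moved ρ L Set.univ = ⊤)
    {X : Module.End (ZMod p) V} (hX : ∀ l ∈ L, Commute X (ρ l)) : Commute X (ρ b) := by
  have htwo : ∀ r : Module.End (ZMod p) V, 2 * r = 0 → r = 0 := by
    intro r hr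
    obtain ⟨k, hk⟩ := hp.out.odd_of_ne_two hp2
    have h1 : ((2 * k + 1 : ℕ) : Module.End (ZMod p) V) * r = r := by
      rw [Nat.cast_add, Nat.cast_mul, add_mul, Nat.cast_ofNat, (Nat.cast_commute k 2).symm.eq,
        mul_assoc, hr, mul_zero, zero_add, Nat.cast_one, one_mul]
    rw [← h1, ← hk, natCast_end_eq_zero, zero_mul]
  obtain ⟨T, hT⟩ : ∃ T, T = ρ b - 1 := ⟨_, rfl⟩
  rw [← hT] at hquad
  have hTT : ∀ Y, T * (T * Y) = 0 := fun Y => by rw [← mul_assoc, hquad, zero_mul]
  have hb1 : ρ b = 1 + T := by rw [hT]; abel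
  have hb' : ρ b⁻¹ = 1 - T := by
    calc ρ b⁻¹ = ρ b⁻¹ * ((1 + T) * (1 - T)) := by
          rw [show (1 + T) * (1 - T) = 1 - T * T by noncomm_ring, hquad, sub_zero, mul_one]
      _ = 1 - T := by rw [← hb1, ← mul_assoc, ← map_mul, inv_mul_cancel, map_one, one_mul]
  let δ : Module.End (ZMod p) V → Module.End (ZMod p) V := fun Y => ρ b * Y * ρ b⁻¹ - Y
  have hδ : ∀ Y, δ Y = T * Y - Y * T - T * (Y * T) := fun Y => by
    simp only [δ, hb1, hb']
    noncomm_ring
  have hδc : ∀ Y, (∀ l ∈ L, Commute Y (ρ l)) → ∀ l ∈ L, Commute (δ Y) (ρ l) := by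
    intro Y hY l hl
    refine Commute.sub_left ?_ (hY l hl)
    have hl' : b⁻¹ * l * b ∈ L := (mem_normalizer_iff''.1 hbL l).1 hl
    calc ρ b * Y * ρ b⁻¹ * ρ l = ρ b * Y * ρ (b⁻¹ * l * b) * ρ b⁻¹ := by
          rw [mul_assoc (ρ b * Y), mul_assoc (ρ b * Y), ← map_mul, ← map_mul]
          simp [mul_assoc]
      _ = ρ b * ρ (b⁻¹ * l * b) * Y * ρ b⁻¹ := by
          rw [mul_assoc (ρ b) Y, (hY _ hl').eq, ← mul_assoc]
      _ = ρ l * (ρ b * Y * ρ b⁻¹) := by
          rw [← map_mul]
          simp only [← mul_assoc, mul_inv_cancel, one_mul]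
          rw [← map_mul]
  have step : ∀ Y, (∀ l ∈ L, Commute Y (ρ l)) → δ (δ Y) = 0 → δ Y = 0 := by
    intro Y hY hY2
    have h1 : T * δ Y = -(T * (Y * T)) := by
      rw [hδ]; simp only [mul_sub, hTT]; abel
    have h2 : δ Y * T = T * (Y * T) := by
      rw [hδ]
      simp only [sub_mul, mul_assoc, hquad, mul_zero, sub_zero]
    have h3 : T * (Y * T) = 0 := by
      apply htwo
      rw [hδ, h1, h2, hTT, sub_zero] at hY2
      rw [← neg_eq_zero, ← hY2]
      noncomm_ring
    rw [h3] at h1 h2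
    rw [neg_zero] at h1
    have hP := hδc Y hY
    -- the `L`-submodule generated by the image of `T`
    let W : Submodule (ZMod p) V := ⨆ l : L, LinearMap.range (ρ l * T)
    have hWL : ∀ l ∈ L, ∀ w ∈ W, ρ l w ∈ W := by
      intro l hl w hw
      induction hw using Submodule.iSup_induction' with
      | mem m x hx =>
        obtain ⟨v, rfl⟩ := hx
        refine Submodule.mem_iSup_of_mem ⟨l * m, L.mul_mem hl m.2⟩ ⟨v, ?_⟩
        simp [Module.End.mul_apply]
      | zero => simp
      | add x y _ _ hx hy => rw [map_add]; exact W.add_mem hx hy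
    have hTW : ∀ v, ρ b v - v ∈ W := fun v =>
      Submodule.mem_iSup_of_mem ⟨1, L.one_mem⟩ ⟨v, by simp [hT]⟩
    let N : Subgroup L :=
      { carrier := {l | ∀ v, ρ (l : G) v - v ∈ W}
        one_mem' := fun v => by simp
        mul_mem' := fun {x y} hx hy v => by
          rw [Subgroup.coe_mul, map_mul, Module.End.mul_apply,
            ← sub_add_sub_cancel _ (ρ (y : G) v) v]
          exact W.add_mem (hx _) (hy v)
        inv_mem' := fun {x} hx v => by
          have := W.neg_mem (hx (ρ ((x : G)⁻¹) v))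
          rw [neg_sub, ← Module.End.mul_apply, ← map_mul, mul_inv_cancel, map_one,
            Module.End.one_apply] at this
          simpa using this }
    haveI : N.Normal := ⟨fun n hn g v => by
      have h := hWL g g.2 _ (hn (ρ ((g : G)⁻¹) v))
      rw [map_sub, ← Module.End.mul_apply, ← Module.End.mul_apply, ← Module.End.mul_apply,
        ← map_mul, ← map_mul, ← map_mul, mul_inv_cancel, map_one, Module.End.one_apply] at h
      simpa [mul_assoc] using h⟩
    have hN : N = ⊤ := conj_invariant_normal hL hbL hb N fun l v => by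
      obtain ⟨u, rfl⟩ : ∃ u, v = ρ (l : G) u := ⟨ρ ((l : G)⁻¹) v, by
        rw [← Module.End.mul_apply, ← map_mul, mul_inv_cancel, map_one, Module.End.one_apply]⟩
      obtain ⟨w, rfl⟩ : ∃ w, u = ρ b w := ⟨ρ b⁻¹ u, by
        rw [← Module.End.mul_apply, ← map_mul, mul_inv_cancel, map_one, Module.End.one_apply]⟩
      rw [← Module.End.mul_apply, ← map_mul, Subgroup.coe_mul, Subgroup.coe_inv,
        inv_mul_cancel_right, ← Module.End.mul_apply, ← map_mul, inv_mul_cancel_right,
        map_mul, Module.End.mul_apply]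
      have := W.sub_mem (hTW (ρ (l : G) w)) (hWL l l.2 _ (hTW w))
      rw [map_sub] at this
      convert this using 1
      abel
    have hWtop : W = ⊤ := by
      rw [eq_top_iff, ← htop]
      refine Submodule.span_le.2 ?_
      rintro _ ⟨l, hl, v, -, rfl⟩
      exact (hN ▸ mem_top (⟨l, hl⟩ : L) : (⟨l, hl⟩ : L) ∈ N) v
    refine LinearMap.ext fun v => ?_
    rw [LinearMap.zero_apply]
    have hv : v ∈ W := hWtop ▸ Submodule.mem_top
    clear hWtop
    induction hv using Submodule.iSup_induction' with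
    | mem m x hx =>
      obtain ⟨u, rfl⟩ := hx
      rw [← Module.End.mul_apply, ← mul_assoc, (hP m m.2).eq, mul_assoc, h2, mul_zero,
        LinearMap.zero_apply]
    | zero => simp
    | add x y _ _ hx hy => rw [map_add, hx, hy, add_zero]
  have h3 : δ (δ (δ X)) = 0 := by
    rw [hδ, hδ, hδ]
    simp only [mul_sub, sub_mul, mul_assoc, hTT, hquad, mul_zero, sub_zero, zero_sub, neg_mul,
      mul_neg, neg_zero]
  have h4 := step _ hX (step _ (hδc _ hX) h3)
  have h5 : ρ b * X * ρ b⁻¹ = X := sub_eq_zero.1 h4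
  calc X * ρ b = ρ b * X * ρ b⁻¹ * ρ b := by rw [h5]
    _ = ρ b * X := by rw [mul_assoc _ (ρ b⁻¹), ← map_mul, inv_mul_cancel, map_one, mul_one]

/-- A quadratic element normalising two commuting quasisimple groups: `K` is trivial on `[V, L]`. -/
theorem trivial_on_moved_of_quadratic (hp2 : p ≠ 2) {K L : Subgroup G} (hK : IsQuasisimple K)
    (hL : IsQuasisimple L) {b : G} (hbK : b ∈ normalizer (K : Set G))
    (hbK' : b ∉ centralizer (K : Set G)) (hbL : b ∈ normalizer (L : Set G))
    (hbL' : b ∉ centralizer (L : Set G)) (hKL : K ≤ centralizer (L : Set G))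
    (hquad : (ρ b - 1) * (ρ b - 1) = 0) :
    ∀ k ∈ K, ∀ v ∈ moved ρ L Set.univ, ρ k v = v := by
  set M := normalizer (L : Set G)
  set W := moved ρ L Set.univ with hWdef
  let ρ' := restrictRep ρ M W fun g hg v hv => map_moved_self ρ hg hv
  have hLM : L ≤ M := le_normalizer
  have hKM : K ≤ M := hKL.trans (centralizer_le_normalizer _)
  have htop : moved ρ' (L.subgroupOf M) Set.univ = ⊤ := by
    haveI := hL.1
    have key : W ≤ (moved ρ' (L.subgroupOf M) Set.univ).map W.subtype := by
      refine Submodule.span_le.2 ?_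
      rintro _ ⟨l, hl, u, -, rfl⟩
      refine stab (ρ.comp L.subtype) ⊤ W ((moved ρ' (L.subgroupOf M) Set.univ).map W.subtype)
        (fun x v _ => sub_mem_moved ρ x.2 (Set.mem_univ v)) (fun x v hv => ?_) ⟨l, hl⟩
        Submodule.mem_top
      exact ⟨ρ' ⟨x, hLM x.2⟩ ⟨v, hv⟩ - ⟨v, hv⟩,
        sub_mem_moved ρ' (mem_subgroupOf.2 x.2) (Set.mem_univ _), rfl⟩
    rw [eq_top_iff]
    intro v _
    obtain ⟨w, hw, hwv⟩ := key v.2
    rwa [← Subtype.ext hwv]
  have hq : (ρ' ⟨b, hbL⟩ - 1) * (ρ' ⟨b, hbL⟩ - 1) = 0 := by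
    refine LinearMap.ext fun v => Subtype.ext ?_
    exact congrArg (fun f : Module.End (ZMod p) V => f v) hquad
  have hb1 : (⟨b, hbL⟩ : M) ∈ normalizer ((L.subgroupOf M : Subgroup M) : Set M) := by
    rw [mem_normalizer_iff]
    exact fun x => mem_normalizer_iff.1 hbL x
  have hb2 : (⟨b, hbL⟩ : M) ∉ centralizer ((L.subgroupOf M : Subgroup M) : Set M) := fun h =>
    hbL' fun x hx => congrArg Subtype.val (h ⟨x, hLM hx⟩ hx)
  have hLq : IsQuasisimple (L.subgroupOf M) :=
    H51.quasisimple_of_equiv hL (subgroupOfEquivOfLe hLM).symm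
  have hcomm : ∀ k : K, Commute (ρ' ⟨k, hKM k.2⟩) (ρ' ⟨b, hbL⟩) := fun k =>
    commute_of_commute_quasisimple ρ' hp2 hLq hb1 hb2 hq htop fun l hl => by
      refine Commute.map ?_ ρ'
      exact Subtype.ext (hKL k.2 l hl).symm
  intro k hk v hv
  haveI := hK.1
  let f : K →* Module.End (ZMod p) W := ρ'.comp (inclusion hKM)
  have hf := conj_invariant_hom_trivial hK hbK hbK' f (fun x => ?_) ⟨k, hk⟩
  · exact congrArg (fun g : Module.End (ZMod p) W => (g ⟨v, hv⟩ : V)) hf
  · change ρ' (⟨b, hbL⟩ * ⟨x, hKM x.2⟩ * (⟨b, hbL⟩ : M)⁻¹) = ρ' ⟨x, hKM x.2⟩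
    rw [map_mul, map_mul, ← (hcomm x).eq, mul_assoc, ← map_mul, mul_inv_cancel, map_one, mul_one]

/-- A quasisimple group has a noncentral element of order prime to `p`. -/
theorem exists_coprime_noncentral [Finite G] {K : Subgroup G} (hK : IsQuasisimple K) :
    ∃ k ∈ K, (orderOf k).Coprime p ∧ k ∉ centralizer (K : Set G) := by
  by_contra! h
  apply H51.quasisimple_not_isSolvable hK
  have hZ : IsPGroup p (K ⧸ center K) := by
    intro q
    induction q using QuotientGroup.induction_on with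
    | _ x =>
      obtain ⟨e, m, hm, hem⟩ := Nat.exists_eq_pow_mul_and_not_dvd (orderOf_pos x).ne' p hp.out.ne_one
      refine ⟨e, ?_⟩
      rw [← QuotientGroup.mk_pow, QuotientGroup.eq_one_iff, mem_center_iff]
      intro y
      have hc : (orderOf ((x ^ p ^ e : K) : G)).Coprime p := by
        rw [Subgroup.orderOf_coe, orderOf_pow' _ (pow_ne_zero _ hp.out.ne_zero), hem,
          Nat.gcd_mul_right_left, Nat.mul_div_cancel_left _ (pow_pos hp.out.pos _)]
        exact (hp.out.coprime_iff_not_dvd.2 hm).symm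
      exact Subtype.ext (h _ (x ^ p ^ e : K).2 hc y y.2)
  haveI : Group.IsNilpotent (K ⧸ center K) := hZ.isNilpotent
  haveI : Group.IsNilpotent K := Subgroup.isNilpotent_of_ker_le_center (QuotientGroup.mk' (center K))
    (by rw [QuotientGroup.ker_mk'])
  infer_instance

/-- For odd `p`, a best offender without elements centralising the component normalises it. -/
theorem le_normalizer_of_odd [Finite G] [Finite V] (hp2 : p ≠ 2) (hρ : Function.Injective ρ)
    {A : Subgroup G} (hA : A ≠ ⊥) (hAel : IsElementaryAbelian p A)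
    (hmax : ∀ B ≤ A, num ρ B ≤ num ρ A) {K : Subgroup G} (hK : IsComponent K)
    (hfree : ∀ a ∈ A, a ≠ 1 → a ∉ centralizer (K : Set G)) : A ≤ normalizer (K : Set G) := by
  classical
  haveI := hAel.1
  have hab : ∀ a ∈ A, ∀ b ∈ A, a * b = b * a := fun a ha b hb => setLike_mul_comm (s := A) ha hb
  set S := A ⊓ fixing ρ (moved ρ A Set.univ) with hS
  have hSA : S ≤ A := inf_le_left
  have hS1 : S ≠ ⊥ := replacement_ne_bot ρ hρ hA hAel hmax
  have hfix : ∀ b ∈ S, ∀ a ∈ A, ∀ v, ρ b (ρ a v - v) = ρ a v - v := fun b hb a ha v =>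
    hb.2 _ (sub_mem_moved ρ ha (Set.mem_univ v))
  have hquad : ∀ b ∈ S, (ρ b - 1) * (ρ b - 1) = 0 := fun b hb => by
    refine LinearMap.ext fun v => ?_
    simp only [Module.End.mul_apply, LinearMap.sub_apply, Module.End.one_apply,
      LinearMap.zero_apply]
    rw [hfix b hb b (hSA hb) v, sub_self]
  by_cases hmove : ∃ b ∈ S, b ∉ normalizer (K : Set G)
  · exfalso
    obtain ⟨b, hbS, hbN⟩ := hmove
    have hbA := hSA hbS
    have hbp : b ^ p = 1 := hAel.2 b hbA
    obtain ⟨k, hkK, hk, hknc⟩ := exists_coprime_noncentral (p := p) hK.2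
    have hob : orderOf b = p := orderOf_eq_prime hbp fun h => hbN (h ▸ one_mem _)
    -- distinct translates lie in distinct components
    have hdist : ∀ i j : ℕ, Commute (b ^ i * k * (b ^ i)⁻¹) (b ^ j * k * (b ^ j)⁻¹) := by
      intro i j
      rcases H51.component_eq_or_commute (H51.component_map_conj hK (b ^ i))
        (H51.component_map_conj hK (b ^ j)) with h | h
      · have hd : (b ^ j)⁻¹ * b ^ i ∈ normalizer (K : Set G) := by
          rw [mem_normalizer_iff]
          intro x
          have hx : x ∈ K ↔ b ^ i * x * (b ^ i)⁻¹ ∈ K.map (MulAut.conj (b ^ i)).toMonoidHom :=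
            ⟨fun hx => ⟨x, hx, rfl⟩, by
              rintro ⟨y, hy, e⟩
              change b ^ i * y * (b ^ i)⁻¹ = b ^ i * x * (b ^ i)⁻¹ at e
              rwa [← mul_left_cancel (mul_right_cancel e)]⟩
          rw [hx, h]
          constructor
          · rintro ⟨y, hy, e⟩
            change b ^ j * y * (b ^ j)⁻¹ = _ at e
            have : (b ^ j)⁻¹ * b ^ i * x * ((b ^ j)⁻¹ * b ^ i)⁻¹ = y := by
              rw [show y = (b ^ j)⁻¹ * (b ^ j * y * (b ^ j)⁻¹) * b ^ j by group, e]; group
            rwa [this]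
          · intro hy
            refine ⟨_, hy, ?_⟩
            change b ^ j * _ * (b ^ j)⁻¹ = _
            group
        have hone : (b ^ j)⁻¹ * b ^ i = 1 := by
          by_contra hne
          have hz : (b ^ j)⁻¹ * b ^ i ∈ zpowers b :=
            mul_mem (inv_mem (pow_mem (mem_zpowers b) j)) (pow_mem (mem_zpowers b) i)
          have hmem : (⟨b, mem_zpowers b⟩ : zpowers b) ∈ zpowers (⟨_, hz⟩ : zpowers b) :=
            mem_zpowers_of_prime_card (by rw [Nat.card_zpowers, hob])
              (fun h => hne (congrArg Subtype.val h))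
          obtain ⟨n, hn⟩ := hmem
          have hn' : ((b ^ j)⁻¹ * b ^ i) ^ n = b := congrArg Subtype.val hn
          exact hbN (hn' ▸ zpow_mem hd n)
        rw [inv_mul_eq_one] at hone
        rw [hone]
      · exact (mem_centralizer_iff.1 (commutator_eq_bot_iff_le_centralizer.1 h
          ⟨k, hkK, rfl⟩) _ ⟨k, hkK, rfl⟩).symm
    let Q := Subgroup.closure (Set.range fun i : ℕ => b ^ i * k * (b ^ i)⁻¹)
    haveI hQc : IsMulCommutative Q := by
      rw [← le_centralizer_iff_isMulCommutative, closure_le]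
      rintro _ ⟨i, rfl⟩
      rw [SetLike.mem_coe, centralizer_closure]
      rintro _ ⟨j, rfl⟩
      exact hdist j i
    have hQo : ∀ d ∈ Q, (orderOf d).Coprime p := by
      intro d hd
      refine Nat.Coprime.coprime_dvd_left (orderOf_dvd_of_pow_eq_one (n := orderOf k) ?_) hk
      have hcl := fun x hx y hy => congrArg Subtype.val (mul_comm' (⟨x, hx⟩ : Q) ⟨y, hy⟩)
      induction hd using closure_induction with
      | mem x hx => obtain ⟨i, rfl⟩ := hx; rw [conj_pow, pow_orderOf_eq_one]; group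
      | one => simp
      | mul x y hx hy h1 h2 =>
        rw [(show Commute x y from hcl x hx y hy).mul_pow, h1, h2, one_mul]
      | inv x _ h1 => rw [inv_pow, h1, inv_one]
    have hQb : ∀ n : ℕ, ∀ d ∈ Q, b ^ n * d * (b ^ n)⁻¹ ∈ Q := by
      intro n d hd
      induction hd using closure_induction with
      | mem x hx =>
        obtain ⟨i, rfl⟩ := hx
        exact subset_closure ⟨n + i, by simp only [pow_add]; group⟩
      | one => simp
      | mul x y _ _ h1 h2 => simpa [mul_assoc] using Q.mul_mem h1 h2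
      | inv x _ h1 => simpa [mul_assoc] using Q.inv_mem h1
    have hQnorm : ∀ d, d ∈ Q ↔ b * d * b⁻¹ ∈ Q := by
      intro d
      refine ⟨fun h => by simpa using hQb 1 d h, fun h => ?_⟩
      have h' := hQb (p - 1) _ h
      have e : b ^ (p - 1) = b⁻¹ := by
        refine eq_inv_of_mul_eq_one_left ?_
        rw [← pow_succ, Nat.sub_add_cancel hp.out.one_le, hbp]
      simpa [e, mul_assoc] using h'
    have heq : b * k * b⁻¹ = k := hρ (H23.map_conj_eq_of_quadratic hp2 natCast_end_eq_zero ρ Q hQo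
      b hQnorm (hquad b hbS) (subset_closure ⟨0, by simp⟩))
    apply hknc
    rcases H51.component_eq_or_commute hK (H51.component_map_conj hK b) with h | h
    · refine absurd ?_ hbN
      rw [mem_normalizer_iff]
      intro x
      conv_rhs => rw [h]
      exact ⟨fun hx => ⟨x, hx, rfl⟩, fun ⟨y, hy, e⟩ => by
        have e' : y = x := by simpa using e
        rwa [← e']⟩
    · rw [commutator_eq_bot_iff_le_centralizer] at h
      intro x hx
      exact (mem_centralizer_iff.1 (h hx) k ⟨k, hkK, heq⟩).symm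
  push Not at hmove
  intro x hxA
  by_contra hxN
  obtain ⟨b, hbS, hb1⟩ : ∃ b ∈ S, b ≠ 1 := by
    obtain ⟨⟨b, hbS⟩, hb⟩ := Subgroup.ne_bot_iff_exists_ne_one.1 hS1
    exact ⟨b, hbS, fun h => hb (Subtype.ext h)⟩
  have hbA := hSA hbS
  have hbK := hmove b hbS
  have hbK' := hfree b hbA hb1
  set L := K.map (MulAut.conj x).toMonoidHom with hLdef
  have hL : IsComponent L := H51.component_map_conj hK x
  have hbx : b * x = x * b := hab b hbA x hxA
  have hconj : ∀ y, b * (x * y * x⁻¹) * b⁻¹ = x * (b * y * b⁻¹) * x⁻¹ := fun y => by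
    have e : x⁻¹ * b⁻¹ = b⁻¹ * x⁻¹ := by rw [← mul_inv_rev, ← mul_inv_rev, hbx]
    calc b * (x * y * x⁻¹) * b⁻¹ = (b * x) * y * (x⁻¹ * b⁻¹) := by group
      _ = x * (b * y * b⁻¹) * x⁻¹ := by rw [hbx, e]; group
  have hbL : b ∈ normalizer (L : Set G) := by
    rw [mem_normalizer_iff]
    intro y
    constructor
    · rintro ⟨z, hz, rfl⟩
      exact ⟨b * z * b⁻¹, (mem_normalizer_iff.1 hbK z).1 hz, (hconj z).symm⟩
    · rintro ⟨z, hz, e⟩
      refine ⟨b⁻¹ * z * b, (mem_normalizer_iff''.1 hbK z).1 hz, ?_⟩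
      change x * (b⁻¹ * z * b) * x⁻¹ = y
      have := hconj (b⁻¹ * z * b)
      rw [show b * (b⁻¹ * z * b) * b⁻¹ = z by group] at this
      exact mul_left_cancel (mul_right_cancel (this.trans e))
  have hbL' : b ∉ centralizer (L : Set G) := fun hb => hbK' fun y hy => by
    have h := hb _ ⟨y, hy, rfl⟩
    change x * y * x⁻¹ * b = b * (x * y * x⁻¹) at h
    have h' := hconj y
    rw [← h, mul_inv_cancel_right] at h'
    calc y * b = b * y * b⁻¹ * b := by rw [← mul_left_cancel (mul_right_cancel h')]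
      _ = b * y := by group
  have hne : L ≠ K := fun h => hxN <| by
    rw [mem_normalizer_iff]
    intro y
    conv_rhs => rw [← h]
    exact ⟨fun hy => ⟨y, hy, rfl⟩, fun ⟨z, hz, e⟩ => by
      have e' : z = y := by simpa using e
      rwa [← e']⟩
  have hKL : K ≤ centralizer (L : Set G) := commutator_eq_bot_iff_le_centralizer.1
    ((H51.component_eq_or_commute hK hL).resolve_left (Ne.symm hne))
  have q1 := trivial_on_moved_of_quadratic ρ hp2 hK.2 hL.2 hbK hbK' hbL hbL' hKL (hquad b hbS)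
  set V0 := moved ρ K Set.univ
  have hy : ∀ v ∈ V0, ρ b v - v ∈ fixed ρ K := by
    intro v hv k hk
    refine q1 k hk _ ?_
    have hxy : ρ x (ρ b v - v) = ρ b v - v := by
      have := hfix b hbS x hxA v
      rw [map_sub, ← Module.End.mul_apply, ← map_mul, hbx, map_mul, Module.End.mul_apply] at this
      rw [map_sub]
      linear_combination (norm := abel) this
    rw [← hxy]
    exact map_moved ρ (L := L) (fun z hz => ⟨z, hz, rfl⟩)
      (V0.sub_mem (map_moved_self ρ hbK hv) hv)
  have hKV0 : ∀ k ∈ K, ∀ v ∈ V0, ρ k v ∈ V0 := fun k hk v hv =>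
    map_moved_self ρ (le_normalizer hk) hv
  let N : Subgroup K :=
    { carrier := {l | ∀ v ∈ V0, ρ (l : G) v - v ∈ fixed ρ K}
      one_mem' := fun v _ => by simp
      mul_mem' := fun {a c} ha hc v hv => by
        rw [Subgroup.coe_mul, map_mul, Module.End.mul_apply,
          ← sub_add_sub_cancel _ (ρ (c : G) v) v]
        exact (fixed ρ K).add_mem (ha _ (hKV0 c c.2 v hv)) (hc v hv)
      inv_mem' := fun {a} ha v hv => by
        have := (fixed ρ K).neg_mem (ha _ (hKV0 _ (K.inv_mem a.2) v hv))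
        rw [neg_sub, ← Module.End.mul_apply, ← map_mul, mul_inv_cancel, map_one,
          Module.End.one_apply] at this
        simpa using this }
  haveI : N.Normal := ⟨fun n hn g v hv => by
    have h := hn _ (hKV0 _ (K.inv_mem g.2) v hv)
    rw [← h g g.2, map_sub, ← Module.End.mul_apply, ← Module.End.mul_apply, ← Module.End.mul_apply,
      ← map_mul, ← map_mul, ← map_mul, mul_inv_cancel, map_one, Module.End.one_apply] at h
    simpa [mul_assoc] using h⟩
  have hN : N = ⊤ := conj_invariant_normal hK.2 hbK hbK' N fun l v hv => by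
    obtain ⟨u, hu, rfl⟩ : ∃ u ∈ V0, v = ρ (l : G) u :=
      ⟨_, hKV0 _ (K.inv_mem l.2) v hv, by
        rw [← Module.End.mul_apply, ← map_mul, mul_inv_cancel, map_one, Module.End.one_apply]⟩
    obtain ⟨w, hw, rfl⟩ : ∃ w ∈ V0, u = ρ b w :=
      ⟨ρ b⁻¹ u, map_moved_self ρ (inv_mem hbK) hu, by
        rw [← Module.End.mul_apply, ← map_mul, mul_inv_cancel, map_one, Module.End.one_apply]⟩
    rw [← Module.End.mul_apply, ← map_mul, Subgroup.coe_mul, Subgroup.coe_inv,
      inv_mul_cancel_right, ← Module.End.mul_apply, ← map_mul, inv_mul_cancel_right,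
      map_mul, Module.End.mul_apply]
    have h2 := hy w hw l l.2
    rw [map_sub] at h2
    have := (fixed ρ K).sub_mem (hy _ (hKV0 l l.2 w hw)) (hy w hw)
    convert this using 1
    linear_combination (norm := abel) -h2
  haveI := hK.2.1
  refine H51.component_ne_bot hK ((Subgroup.eq_bot_iff_forall K).2 fun y hyK => ?_)
  refine hρ (LinearMap.ext fun v => ?_)
  have h1 : ∀ (k : K) (u : V), ρ (k : G) u - u ∈ fixed ρ K := fun k u =>
    stab (ρ.comp K.subtype) ⊤ V0 (fixed ρ K) (fun z w _ => sub_mem_moved ρ z.2 (Set.mem_univ w))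
      (fun z w hw => (hN ▸ mem_top z : z ∈ N) w hw) k Submodule.mem_top
  have h2 := stab (ρ.comp K.subtype) ⊤ (fixed ρ K) ⊥ (fun z w _ => h1 z w)
    (fun z w hw => by simp [hw _ z.2]) ⟨y, hyK⟩ (u := v) Submodule.mem_top
  rw [Submodule.mem_bot, sub_eq_zero] at h2
  simpa using h2

end Cfsg.Agent.H34.Comp86
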